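import Mathlib
import Cfsg.Agent.Helper21.N2RDefs

set_option autoImplicit false

/-! helper31: CALL S2249 (helper21), piece A0C. -/

namespace Cfsg.Agent.Helper31.N2RA0C

open Matrix Cfsg.Agent.Helper21.N2R

/-- A0C -/
theorem card_A0 {m ν : Type*} [Fintype m] [DecidableEq m] [Fintype ν]
    {F : Type*} [Field F] (h2 : (2 : F) ≠ 0) (π : m → ν) (hπ : Function.Surjective π) :
    Nat.card (A0 F π) = 2 ^ Fintype.card ν := by
  classical
  have h11 : (1 : F) ≠ -1 := by
    intro h
    apply h2
    linear_combination h
  have hinj : Function.Injective (sgn F π) := by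
    intro ε ε' h
    funext k
    obtain ⟨i, rfl⟩ := hπ k
    have h1 : ((sgn F π ε : GL m F) : Matrix m m F) i i
        = ((sgn F π ε' : GL m F) : Matrix m m F) i i := by rw [h]
    rw [sgn_val, sgn_val, Matrix.diagonal_apply_eq, Matrix.diagonal_apply_eq] at h1
    rcases Int.units_eq_one_or (ε (π i)) with h3 | h3 <;>
      rcases Int.units_eq_one_or (ε' (π i)) with h4 | h4
    · rw [h3, h4]
    · exfalso
      rw [h3, h4] at h1
      push_cast at h1
      exact h11 h1
    · exfalso
      rw [h3, h4] at h1
      push_cast at h1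
      exact h11 h1.symm
    · rw [h3, h4]
  unfold A0
  rw [← Nat.card_congr (MonoidHom.ofInjective hinj).toEquiv, Nat.card_eq_fintype_card,
    Fintype.card_fun, Fintype.card_units_int]

end Cfsg.Agent.Helper31.N2RA0C
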