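import Mathlib
import Cfsg.Agent.Helper21.N2RDefs

set_option autoImplicit false

/-! helper31: CALL S2249 (helper21), piece CB. -/

namespace Cfsg.Agent.Helper31.N2RCB

open Matrix Cfsg.Agent.Helper21.N2R

/-- CB -/
theorem corner_back {m ν ι' : Type*} [Fintype m] [DecidableEq m] [DecidableEq ν] [Fintype ι']
    [DecidableEq ι'] {F : Type*} [Field F] (π : m → ν) (k : ν) (e : ι' → m)
    (hinj : Function.Injective e) (he : ∀ y, π y = k ↔ y ∈ Set.range e) (X : Matrix m m F)
    (hX : X * fE π k = fE π k * X) (c : F) (hc : X.submatrix e e = c • (1 : Matrix ι' ι' F)) :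
    X * fE π k = c • fE π k := by
  classical
  ext i l
  have h := congrFun (congrFun hX i) l
  unfold fE at h ⊢
  rw [Matrix.mul_diagonal, Matrix.diagonal_mul] at h
  rw [Matrix.mul_diagonal, Matrix.smul_apply, Matrix.diagonal_apply, smul_eq_mul]
  by_cases hl : π l = k
  · rw [if_pos hl, mul_one] at h ⊢
    obtain ⟨t, rfl⟩ := (he l).1 hl
    by_cases hi : π i = k
    · obtain ⟨s, rfl⟩ := (he i).1 hi
      have h2 := congrFun (congrFun hc s) t
      rw [Matrix.submatrix_apply, Matrix.smul_apply, Matrix.one_apply, smul_eq_mul] at h2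
      rw [h2]
      by_cases hst : s = t
      · subst hst
        rw [if_pos rfl, if_pos rfl, if_pos hi]
      · have hne : e s ≠ e t := fun h' => hst (hinj h')
        rw [if_neg hst, if_neg hne]
    · rw [if_neg hi, zero_mul] at h
      have hil : i ≠ e t := by
        rintro rfl
        exact hi hl
      rw [h, if_neg hil, mul_zero]
  · rw [if_neg hl, mul_zero]
    by_cases hil : i = l
    · subst hil
      rw [if_pos rfl, if_neg hl, mul_zero]
    · rw [if_neg hil, mul_zero]

end Cfsg.Agent.Helper31.N2RCB
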