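import Mathlib
import Cfsg.Agent.Helper21.N2RDefs

set_option autoImplicit false

/-! helper31: CALL S2249 (helper21), piece CM. -/

namespace Cfsg.Agent.Helper31.N2RCM

open Matrix Cfsg.Agent.Helper21.N2R

/-- CM -/
theorem corner_mul {m ν ι' : Type*} [Fintype m] [DecidableEq m] [DecidableEq ν] [Fintype ι']
    {F : Type*} [Field F] (π : m → ν) (k : ν) (e : ι' → m) (hinj : Function.Injective e)
    (he : ∀ y, π y = k ↔ y ∈ Set.range e) (X Y : Matrix m m F)
    (hX : X * fE π k = fE π k * X) :
    (X * Y).submatrix e e = X.submatrix e e * Y.submatrix e e := by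
  classical
  ext s t
  rw [Matrix.submatrix_apply, Matrix.mul_apply, Matrix.mul_apply]
  simp only [Matrix.submatrix_apply]
  have hzero : ∀ y, y ∉ Set.range e → X (e s) y = 0 := by
    intro y hy
    have h := congrFun (congrFun hX (e s)) y
    unfold fE at h
    rw [Matrix.mul_diagonal, Matrix.diagonal_mul] at h
    have hk : π (e s) = k := (he (e s)).2 ⟨s, rfl⟩
    have hyk : ¬ π y = k := fun h' => hy ((he y).1 h')
    rw [if_neg hyk, if_pos hk, mul_zero, one_mul] at h
    exact h.symm
  rw [← Finset.sum_image (s := Finset.univ) (g := e) (f := fun y => X (e s) y * Y y (e t))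
    (fun a _ b _ h => hinj h)]
  symm
  apply Finset.sum_subset (Finset.subset_univ _)
  intro y _ hy
  have hy' : y ∉ Set.range e := by
    rintro ⟨s', rfl⟩
    exact hy (Finset.mem_image_of_mem e (Finset.mem_univ s'))
  rw [hzero y hy', zero_mul]

end Cfsg.Agent.Helper31.N2RCM
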