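import Mathlib
import Cfsg.Agent.Helper21.N2RDefs

set_option autoImplicit false

/-! helper31: CALL S2249 (helper21), piece FIN. -/

namespace Cfsg.Agent.Helper31.N2RFIN

open Matrix Cfsg.Agent.Helper21.N2R

/-- FIN -/
theorem mem_A0_of_scalar {m ν : Type*} [Fintype m] [DecidableEq m] [Fintype ν] [DecidableEq ν]
    {F : Type*} [Field F] (π : m → ν) (a : GL m F) (haa : a * a = 1)
    (hs : ∀ k, ∃ c : F, (a : Matrix m m F) * fE π k = c • fE π k) : a ∈ A0 F π := by
  classical
  choose c hc using hs
  have hentry : ∀ i j, (a : Matrix m m F) i j = if i = j then c (π j) else 0 := by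
    intro i j
    have h := congrFun (congrFun (hc (π j)) i) j
    unfold fE at h
    rw [Matrix.mul_diagonal, Matrix.smul_apply, Matrix.diagonal_apply, if_pos rfl, mul_one,
      smul_eq_mul] at h
    rw [h]
    by_cases hij : i = j
    · subst hij
      rw [if_pos rfl, if_pos rfl, if_pos rfl, mul_one]
    · rw [if_neg hij, if_neg hij, mul_zero]
  have hsq : ∀ i, c (π i) * c (π i) = 1 := by
    intro i
    have h : ((a * a : GL m F) : Matrix m m F) i i = 1 := by
      rw [haa]
      simp
    rw [Units.val_mul, Matrix.mul_apply, Finset.sum_eq_single i] at h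
    · rw [hentry i i, if_pos rfl] at h
      exact h
    · intro l _ hl
      rw [hentry i l, if_neg (Ne.symm hl), zero_mul]
    · intro h'
      exact absurd (Finset.mem_univ i) h'
  have hpm : ∀ i, c (π i) = 1 ∨ c (π i) = -1 := fun i => mul_self_eq_one_iff.1 (hsq i)
  rw [mem_A0_iff]
  refine ⟨fun k => if c k = 1 then 1 else -1, ?_⟩
  apply Units.ext
  rw [sgn_val]
  ext i j
  rw [Matrix.diagonal_apply, hentry i j]
  by_cases hij : i = j
  · subst hij
    rw [if_pos rfl, if_pos rfl]
    by_cases h1 : c (π i) = 1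
    · rw [if_pos h1, h1]
      simp
    · rw [if_neg h1, (hpm i).resolve_left h1]
      simp
  · rw [if_neg hij, if_neg hij]

end Cfsg.Agent.Helper31.N2RFIN
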