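import Mathlib

/-!
# Helper31: a dihedral group of order 8 from three involutions (for CALL S0984, pieces T1B, T2E)

From involutions `z`, `k`, `t` with `z k = k z`, `z t = t z`, `t k t⁻¹ = z k` we build the subgroup
`S0 = M ∪ M t` of order 8, where `M = ⟨t k⟩` is cyclic of order 4 with `(t k)² = z`.
-/

set_option autoImplicit false

universe u

namespace Cfsg.Agent.Helper31

section D8

variable {G : Type u} [Group G]

/-- The subgroup `M ∪ M t` for an element `t` with `t t = 1` normalising `M`. -/
def a7d8Sub (M : Subgroup G) (t : G) (ht : t * t = 1) (hn : ∀ m ∈ M, t * m * t ∈ M) :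
    Subgroup G where
  carrier := {g | g ∈ M ∨ g * t ∈ M}
  one_mem' := Or.inl M.one_mem
  mul_mem' := by
    rintro a b (ha | ha) (hb | hb)
    · exact Or.inl (M.mul_mem ha hb)
    · right
      rw [mul_assoc]
      exact M.mul_mem ha hb
    · right
      have h := M.mul_mem ha (hn b hb)
      have e : a * t * (t * b * t) = a * b * t := by
        calc a * t * (t * b * t) = a * (t * t) * b * t := by group
          _ = a * b * t := by rw [ht, mul_one]
      rw [← e]
      exact h
    · left
      have h := M.mul_mem ha (hn _ hb)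
      have e : a * t * (t * (b * t) * t) = a * b := by
        calc a * t * (t * (b * t) * t) = a * (t * t) * b * (t * t) := by group
          _ = a * b := by rw [ht, mul_one, mul_one]
      rw [← e]
      exact h
  inv_mem' := by
    rintro a (ha | ha)
    · exact Or.inl (M.inv_mem ha)
    · right
      have h := hn _ (M.inv_mem ha)
      have e : t * (a * t)⁻¹ * t = a⁻¹ * t := by group
      rw [← e]
      exact h

theorem mem_a7d8Sub (M : Subgroup G) (t : G) (ht : t * t = 1) (hn : ∀ m ∈ M, t * m * t ∈ M)
    (g : G) : g ∈ a7d8Sub M t ht hn ↔ g ∈ M ∨ g * t ∈ M := Iff.rfl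

theorem a7d8Sub_card [Finite G] (M : Subgroup G) (t : G) (ht : t * t = 1)
    (hn : ∀ m ∈ M, t * m * t ∈ M) (htM : t ∉ M) :
    Nat.card (a7d8Sub M t ht hn) = 2 * Nat.card M := by
  classical
  have hset : ((a7d8Sub M t ht hn : Subgroup G) : Set G)
      = (M : Set G) ∪ (fun m => m * t) '' (M : Set G) := by
    ext g
    simp only [Set.mem_union, Set.mem_image, SetLike.mem_coe, mem_a7d8Sub]
    constructor
    · rintro (h | h)
      · exact Or.inl h
      · exact Or.inr ⟨g * t, h, by rw [mul_assoc, ht, mul_one]⟩
    · rintro (h | ⟨m, hm, rfl⟩)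
      · exact Or.inl h
      · right
        rw [mul_assoc, ht, mul_one]
        exact hm
  have hdisj : Disjoint (M : Set G) ((fun m => m * t) '' (M : Set G)) := by
    rw [Set.disjoint_left]
    rintro g hg ⟨m, hm, rfl⟩
    apply htM
    have := M.mul_mem (M.inv_mem hm) hg
    simpa using this
  have h1 : Nat.card (a7d8Sub M t ht hn) = ((a7d8Sub M t ht hn : Subgroup G) : Set G).ncard :=
    Nat.card_coe_set_eq _
  have h2 : Nat.card M = (M : Set G).ncard := Nat.card_coe_set_eq _
  rw [h1, hset, Set.ncard_union_eq hdisj (Set.toFinite _) (Set.toFinite _),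
    Set.ncard_image_of_injective _ (mul_left_injective t), h2]
  ring

/-- The involutions of a cyclic group of order four. -/
theorem a7d8_invol_of_mem_zpowers (u₀ : G) (h4 : orderOf u₀ = 4) (m : G)
    (hm : m ∈ Subgroup.zpowers u₀) (hm2 : orderOf m = 2) : m = u₀ * u₀ := by
  obtain ⟨j, rfl⟩ := Subgroup.mem_zpowers_iff.mp hm
  have hj : u₀ ^ j = u₀ ^ (j % 4).toNat := by
    have h := zpow_mod_orderOf u₀ j
    rw [h4] at h
    rw [← zpow_natCast, Int.toNat_of_nonneg (Int.emod_nonneg j (by norm_num))]
    exact h.symm
  have hlt : (j % 4).toNat < 4 := by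
    have := Int.emod_lt_of_pos j (show (0 : ℤ) < 4 by norm_num)
    have := Int.emod_nonneg j (show (4 : ℤ) ≠ 0 by norm_num)
    omega
  rw [hj] at hm2 ⊢
  set r := (j % 4).toNat
  have hsq : (u₀ ^ r) ^ 2 = 1 := by rw [← hm2]; exact pow_orderOf_eq_one _
  rw [← pow_mul] at hsq
  have hdvd : 4 ∣ r * 2 := by rw [← h4]; exact orderOf_dvd_of_pow_eq_one hsq
  have hr : r = 0 ∨ r = 2 := by omega
  rcases hr with hr | hr
  · exfalso
    rw [hr, pow_zero, orderOf_one] at hm2
    omega
  · rw [hr, pow_two]

/-- An element of order four of a cyclic group of order four generates it. -/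
theorem a7d8_zpowers_eq [Finite G] (u₀ s : G) (h4 : orderOf u₀ = 4)
    (hs : s ∈ Subgroup.zpowers u₀) (hs4 : orderOf s = 4) :
    Subgroup.zpowers s = Subgroup.zpowers u₀ := by
  apply Subgroup.eq_of_le_of_card_ge (Subgroup.zpowers_le.mpr hs)
  rw [Nat.card_zpowers, Nat.card_zpowers, h4, hs4]

/-- The dihedral subgroup of order eight generated by `z`, `k`, `t`. -/
theorem a7d8_struct [Finite G] (z k t : G) (hz : orderOf z = 2) (hk : orderOf k = 2)
    (ht : orderOf t = 2) (htk : t * k * t⁻¹ = z * k) :
    ∃ (S0 : Subgroup G) (u₀ : G), Nat.card S0 = 8 ∧ orderOf u₀ = 4 ∧ u₀ * u₀ = z ∧ u₀ ∈ S0 ∧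
      (∀ g ∈ S0, g ∉ Subgroup.zpowers u₀ → orderOf g = 2) ∧
      (∀ g ∈ S0, ∀ h ∈ S0, (g * h ∈ Subgroup.zpowers u₀ ↔
        (g ∈ Subgroup.zpowers u₀ ↔ h ∈ Subgroup.zpowers u₀))) := by
  have hp2 : Fact (Nat.Prime 2) := ⟨Nat.prime_two⟩
  have htt : t * t = 1 := by
    have := pow_orderOf_eq_one t
    rw [ht, pow_two] at this
    exact this
  have hkk : k * k = 1 := by
    have := pow_orderOf_eq_one k
    rw [hk, pow_two] at this
    exact this
  have hzz : z * z = 1 := by
    have := pow_orderOf_eq_one z
    rw [hz, pow_two] at this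
    exact this
  have hz1 : z ≠ 1 := by
    intro h
    rw [h, orderOf_one] at hz
    omega
  have htinv : t⁻¹ = t := inv_eq_of_mul_eq_one_left htt
  have hkinv : k⁻¹ = k := inv_eq_of_mul_eq_one_left hkk
  rw [htinv] at htk
  -- the element of order four
  have hu2 : (t * k) * (t * k) = z := by
    calc (t * k) * (t * k) = (t * k * t) * k := by group
      _ = z * k * k := by rw [htk]
      _ = z := by rw [mul_assoc, hkk, mul_one]
  have hu4 : orderOf (t * k) = 4 := by
    have h := orderOf_eq_prime_pow (x := t * k) (p := 2) (n := 1)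
      (by rw [pow_one, pow_two, hu2]; exact hz1)
      (by
        have e : (t * k) ^ 2 ^ (1 + 1) = ((t * k) * (t * k)) * ((t * k) * (t * k)) := by
          norm_num [pow_succ, mul_assoc]
        rw [e, hu2, hzz])
    simpa using h
  -- `t` inverts `t k`
  have hconj : t * (t * k) * t = (t * k)⁻¹ := by
    rw [mul_inv_rev, htinv, hkinv]
    calc t * (t * k) * t = (t * t) * k * t := by group
      _ = k * t := by rw [htt, one_mul]
  have hinvM : ∀ m ∈ Subgroup.zpowers (t * k), t * m * t = m⁻¹ := by
    rintro m ⟨j, rfl⟩
    have h1 : t * (t * k) ^ j * t⁻¹ = (t * (t * k) * t⁻¹) ^ j := (conj_zpow).symm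
    rw [htinv] at h1
    rw [h1, hconj, inv_zpow]
  have hn : ∀ m ∈ Subgroup.zpowers (t * k), t * m * t ∈ Subgroup.zpowers (t * k) := by
    intro m hm
    rw [hinvM m hm]
    exact Subgroup.inv_mem _ hm
  have htM : t ∉ Subgroup.zpowers (t * k) := by
    intro h
    have h1 := hinvM t h
    rw [htt, one_mul, htinv] at h1
    -- `t` would commute with `t k`
    have h2 : k ∈ Subgroup.zpowers (t * k) := by
      have := Subgroup.mul_mem _ (Subgroup.inv_mem _ h) (Subgroup.mem_zpowers (t * k))
      simpa using this
    have h3 := hinvM k h2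
    -- `t k t = k⁻¹ = k`, but `t k t = z k`
    rw [htk, hkinv] at h3
    apply hz1
    have : z * k = 1 * k := by rw [h3, one_mul]
    exact mul_right_cancel this
  refine ⟨a7d8Sub (Subgroup.zpowers (t * k)) t htt hn, t * k, ?_, hu4, hu2, ?_, ?_, ?_⟩
  · rw [a7d8Sub_card _ _ _ _ htM, Nat.card_zpowers, hu4]
  · exact Or.inl (Subgroup.mem_zpowers _)
  · intro g hg hgM
    rcases hg with hg | hg
    · exact absurd hg hgM
    · have h1 := hinvM _ hg
      have h1' : t * g = (g * t)⁻¹ := by
        rw [← h1]
        calc t * g = t * g * (t * t) := by rw [htt, mul_one]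
          _ = t * (g * t) * t := by group
      have hgg : g * g = 1 := by
        calc g * g = g * (t * t) * g := by rw [htt, mul_one]
          _ = (g * t) * (t * g) := by group
          _ = 1 := by rw [h1', mul_inv_cancel]
      apply orderOf_eq_prime
      · rw [pow_two, hgg]
      · intro h
        apply hgM
        rw [h]
        exact Subgroup.one_mem _
  · intro g hg h hh
    rcases hg with hg | hg <;> rcases hh with hh | hh
    · exact ⟨fun _ => ⟨fun _ => hh, fun _ => hg⟩, fun _ => Subgroup.mul_mem _ hg hh⟩
    · have hhM : h ∉ Subgroup.zpowers (t * k) := by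
        intro h'
        apply htM
        have := Subgroup.mul_mem _ (Subgroup.inv_mem _ h') hh
        simpa using this
      constructor
      · intro hgh
        exfalso
        apply hhM
        have := Subgroup.mul_mem _ (Subgroup.inv_mem _ hg) hgh
        simpa using this
      · intro hiff
        exact absurd (hiff.mp hg) hhM
    · have hgM : g ∉ Subgroup.zpowers (t * k) := by
        intro h'
        apply htM
        have := Subgroup.mul_mem _ (Subgroup.inv_mem _ h') hg
        simpa using this
      constructor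
      · intro hgh
        exfalso
        apply hgM
        have := Subgroup.mul_mem _ hgh (Subgroup.inv_mem _ hh)
        simpa using this
      · intro hiff
        exact absurd (hiff.mpr hh) hgM
    · have hgM : g ∉ Subgroup.zpowers (t * k) := by
        intro h'
        apply htM
        have := Subgroup.mul_mem _ (Subgroup.inv_mem _ h') hg
        simpa using this
      have hhM : h ∉ Subgroup.zpowers (t * k) := by
        intro h'
        apply htM
        have := Subgroup.mul_mem _ (Subgroup.inv_mem _ h') hh
        simpa using this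
      have hgh : g * h ∈ Subgroup.zpowers (t * k) := by
        have h1 := Subgroup.mul_mem _ hg (hn _ hh)
        have e : g * t * (t * (h * t) * t) = g * h := by
          calc g * t * (t * (h * t) * t) = g * (t * t) * h * (t * t) := by group
            _ = g * h := by rw [htt, mul_one, mul_one]
        rw [← e]
        exact h1
      exact ⟨fun _ => ⟨fun h' => absurd h' hgM, fun h' => absurd h' hhM⟩, fun _ => hgh⟩

end D8

end Cfsg.Agent.Helper31
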