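import Mathlib
import Cfsg.Agent.Helper9.BRDefs
import Cfsg.Agent.Helper82.A7Defs
import Cfsg.Agent.S0991

/-!
# CALL S0984 (helper82), piece FIN

A simple group of order 2520 with a subgroup of index 7 is isomorphic to the alternating group
of degree 7.
-/

set_option autoImplicit false
set_option linter.style.haveILetI false
open Cfsg
open scoped ComplexConjugate

universe u

namespace Cfsg.Agent.Helper31

/-- PIECE FIN -/
theorem a7_of_index {G : Type u} [Group G] [Finite G] [IsSimpleGroup G]
    (hG : Nat.card G = 2520) (H : Subgroup G) (hH : H.index = 7) :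
    Nonempty (G ≃* alternatingGroup (Fin 7)) := by
  classical
  have hHtop : H ≠ ⊤ := by
    intro h
    rw [h, Subgroup.index_top] at hH
    omega
  have hnc : ¬ IsMulCommutative G := by
    intro hc
    -- a commutative simple group has prime order
    letI : CommGroup G := { ‹Group G› with mul_comm := fun a b => hc.is_comm.comm a b }
    have hprime : (Nat.card G).Prime := IsSimpleGroup.prime_card
    rw [hG] at hprime
    norm_num at hprime
  have key : ∀ n : ℕ, H.index = n →
      ∃ f : G →* ↥(alternatingGroup (Fin n)), Function.Injective f := by
    intro n hn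
    subst hn
    exact Cfsg.Agent.S0991.result hnc H hHtop
  obtain ⟨f, hf⟩ := key 7 hH
  have hcardA : Nat.card (alternatingGroup (Fin 7)) = 2520 := by
    have h1 := two_mul_card_alternatingGroup (α := Fin 7)
    rw [Nat.card_eq_fintype_card]
    have h2 : Fintype.card (Equiv.Perm (Fin 7)) = 5040 := by
      rw [Fintype.card_perm, Fintype.card_fin]
      decide
    omega
  have hbij : Function.Bijective f := by
    rw [Nat.bijective_iff_injective_and_card]
    exact ⟨hf, by rw [hG, hcardA]⟩
  exact ⟨MulEquiv.ofBijective f hbij⟩

end Cfsg.Agent.Helper31
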