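import Mathlib
import Cfsg.Agent.Helper9.BRDefs
import Cfsg.Agent.Helper9.OrdTools
import Cfsg.Agent.Helper82.A7Defs

/-!
# CALL S0984 (helper82), piece IDX

A proper subgroup of a simple group of order 2520 has index at least 7.
-/

set_option autoImplicit false
set_option linter.style.haveILetI false
open Cfsg
open scoped ComplexConjugate

universe u

namespace Cfsg.Agent.Helper31

/-- PIECE IDX -/
theorem a7_index {G : Type u} [Group G] [Finite G] [IsSimpleGroup G]
    (hG : Nat.card G = 2520) (H : Subgroup G) (hH : H ≠ ⊤) : 7 ≤ H.index := by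
  have h := Cfsg.Agent.Helper9.OrdTools.card_dvd_factorial_index H hH
  rw [hG] at h
  by_contra hcon
  have h6 : (H.index).factorial ∣ Nat.factorial 6 := Nat.factorial_dvd_factorial (by omega)
  have h720 : Nat.factorial 6 = 720 := by decide
  rw [h720] at h6
  have := Nat.le_of_dvd (by norm_num) (h.trans h6)
  omega

end Cfsg.Agent.Helper31
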