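import Mathlib
import Cfsg.Agent.Helper9.BRDefs
import Cfsg.Agent.Helper9.OrdTools
import Cfsg.Agent.Helper82.A7Defs
import Cfsg.Agent.Helper55.ThompsonTransfer
import Cfsg.Agent.Helper31.A7D8Aux

/-!
# CALL S0984 (helper82), piece T1B

In a simple group of order 2520 containing the dihedral configuration `z`, `k`, `t`, every
involution is conjugate to `z` (Thompson transfer).
-/

set_option autoImplicit false
set_option linter.style.haveILetI false
set_option linter.unusedVariables false
open Cfsg
open scoped ComplexConjugate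

universe u

namespace Cfsg.Agent.Helper31

theorem a7t1b_c2_sq : (1 : Multiplicative (ZMod 2))
    = Multiplicative.ofAdd (1 : ZMod 2) * Multiplicative.ofAdd (1 : ZMod 2) := by decide

theorem a7t1b_c2_ne : Multiplicative.ofAdd (1 : ZMod 2) ≠ 1 := by decide

/-- PIECE T1B -/
theorem a7_d8_conj {G : Type u} [Group G] [Finite G] [IsSimpleGroup G]
    (hG : Nat.card G = 2520) (z k t : G) (hz : orderOf z = 2) (hk : orderOf k = 2)
    (ht : orderOf t = 2) (hkz : k ≠ z) (hzk : z * k = k * z) (hzt : z * t = t * z)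
    (htk : t * k * t⁻¹ = z * k) (g : G) (hg : orderOf g = 2) : IsConj g z := by
  classical
  haveI : Fact (Nat.Prime 2) := ⟨Nat.prime_two⟩
  obtain ⟨S0, u₀, hS0, hu4, hu2, hu0S, hout, hmul⟩ := a7d8_struct z k t hz hk ht htk
  have hS0p : IsPGroup 2 S0 := IsPGroup.of_card (n := 3) (by rw [hS0]; norm_num)
  obtain ⟨Q, hQ⟩ := hS0p.exists_le_sylow
  have hQcard : Nat.card (Q : Subgroup G) = 8 := by
    have := Cfsg.Agent.Helper9.OrdTools.sylow_card (p := 2) 3 315 (hG.trans (by norm_num))
      (by norm_num) Q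
    simpa using this
  have hQeq : S0 = (Q : Subgroup G) :=
    Subgroup.eq_of_le_of_card_ge hQ (by rw [hS0, hQcard])
  let ϕ : ↥(Q : Subgroup G) →* Multiplicative (ZMod 2) :=
    MonoidHom.mk' (fun s => if (s : G) ∈ Subgroup.zpowers u₀ then 1 else Multiplicative.ofAdd 1)
      (by
        intro a b
        have ha : (a : G) ∈ S0 := by rw [hQeq]; exact a.2
        have hb : (b : G) ∈ S0 := by rw [hQeq]; exact b.2
        have h := hmul a ha b hb
        show (if ((a * b : ↥(Q : Subgroup G)) : G) ∈ Subgroup.zpowers u₀ then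
          (1 : Multiplicative (ZMod 2)) else Multiplicative.ofAdd 1) = _
        rw [Subgroup.coe_mul]
        by_cases h1 : (a : G) ∈ Subgroup.zpowers u₀ <;>
          by_cases h2 : (b : G) ∈ Subgroup.zpowers u₀
        · rw [if_pos (h.mpr ⟨fun _ => h2, fun _ => h1⟩), if_pos h1, if_pos h2]
          rfl
        · rw [if_neg (fun h' => h2 ((h.mp h').mp h1)), if_pos h1, if_neg h2]
          rfl
        · rw [if_neg (fun h' => h1 ((h.mp h').mpr h2)), if_neg h1, if_pos h2]
          rfl
        · rw [if_pos (h.mpr ⟨fun h' => absurd h' h1, fun h' => absurd h' h2⟩), if_neg h1,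
            if_neg h2]
          exact a7t1b_c2_sq)
  have hna : ∃ a b : G, a * b ≠ b * a := by
    by_contra hcon
    have hc : ∀ a b : G, a * b = b * a := by
      intro a b
      by_contra hab
      exact hcon ⟨a, b, hab⟩
    letI : CommGroup G := { ‹Group G› with mul_comm := hc }
    have hprime : (Nat.card G).Prime := IsSimpleGroup.prime_card
    rw [hG] at hprime
    norm_num at hprime
  have hG' : ∀ f : G →* Multiplicative (ZMod 2), ∀ x : G, f x = 1 :=
    fun f x => Cfsg.Agent.Helper9.OrdTools.hom_trivial hna f x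
  have hgg : g * g = 1 := by
    have := pow_orderOf_eq_one g
    rw [hg, pow_two] at this
    exact this
  have hg1 : g ≠ 1 := by
    intro h
    rw [h, orderOf_one] at hg
    omega
  obtain ⟨c, hc, hϕ⟩ := Cfsg.Agent.Helper55.thompson_transfer_conj hG' Q ϕ g hgg
  have hmemM : c⁻¹ * g * c ∈ Subgroup.zpowers u₀ := by
    by_contra hno
    have h1 : ϕ ⟨c⁻¹ * g * c, hc⟩ = Multiplicative.ofAdd 1 := if_neg hno
    rw [h1] at hϕ
    exact absurd hϕ a7t1b_c2_ne
  have hord : orderOf (c⁻¹ * g * c) = 2 := by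
    apply orderOf_eq_prime
    · rw [pow_two]
      calc c⁻¹ * g * c * (c⁻¹ * g * c) = c⁻¹ * (g * g) * c := by group
        _ = 1 := by rw [hgg]; group
    · intro h
      apply hg1
      calc g = c * (c⁻¹ * g * c) * c⁻¹ := by group
        _ = 1 := by rw [h]; group
  have hz' : c⁻¹ * g * c = z := by
    rw [a7d8_invol_of_mem_zpowers u₀ hu4 _ hmemM hord, hu2]
  rw [isConj_iff]
  exact ⟨c⁻¹, by rw [inv_inv]; exact hz'⟩

end Cfsg.Agent.Helper31
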