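import Mathlib
import Cfsg.Agent.Helper9.BRDefs
import Cfsg.Agent.Helper9.OrdTools
import Cfsg.Agent.Helper82.A7Defs
import Cfsg.Agent.Helper31.Sylow
import Cfsg.Agent.Helper31.A7D8Aux

/-!
# CALL S0984 (helper82), piece T2E

In a group of order 2520 containing the dihedral configuration `z`, `k`, `t`, every element `u`
of order 4 lies in a subgroup `T` of order 8 all of whose elements outside `⟨u⟩` are involutions.
-/

set_option autoImplicit false
set_option linter.style.haveILetI false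
set_option linter.unusedVariables false
open Cfsg
open scoped ComplexConjugate

universe u

namespace Cfsg.Agent.Helper31

/-- PIECE T2E -/
theorem a7_sylow2 {G : Type u} [Group G] [Finite G]
    (hG : Nat.card G = 2520) (z k t : G) (hz : orderOf z = 2) (hk : orderOf k = 2)
    (ht : orderOf t = 2) (hkz : k ≠ z) (hzk : z * k = k * z) (hzt : z * t = t * z)
    (htk : t * k * t⁻¹ = z * k) (u : G) (hu : orderOf u = 4) :
    ∃ T : Subgroup G, Nat.card T = 8 ∧ u ∈ T ∧
      ∀ g ∈ T, g ∉ Subgroup.zpowers u → orderOf g = 2 := by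
  classical
  haveI : Fact (Nat.Prime 2) := ⟨Nat.prime_two⟩
  obtain ⟨S0, u₀, hS0, hu4, hu2, hu0S, hout, hmul⟩ := a7d8_struct z k t hz hk ht htk
  have hS0p : IsPGroup 2 S0 := IsPGroup.of_card (n := 3) (by rw [hS0]; norm_num)
  obtain ⟨Q, hQ⟩ := hS0p.exists_le_sylow
  have hQcard : Nat.card (Q : Subgroup G) = 8 := by
    have := Cfsg.Agent.Helper9.OrdTools.sylow_card (p := 2) 3 315 (hG.trans (by norm_num))
      (by norm_num) Q
    simpa using this
  have hQeq : S0 = (Q : Subgroup G) :=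
    Subgroup.eq_of_le_of_card_ge hQ (by rw [hS0, hQcard])
  have hUp : IsPGroup 2 (Subgroup.zpowers u) :=
    IsPGroup.of_card (n := 2) (by rw [Nat.card_zpowers, hu]; norm_num)
  obtain ⟨c, hc'⟩ := exists_conj_mem_sylow Q hUp
  have hc : c * u * c⁻¹ ∈ S0 := by
    rw [hQeq]
    exact hc'
  -- `s_u = c u c⁻¹` has order four, hence lies in `M`
  have hsu4 : orderOf (c * u * c⁻¹) = 4 := by rw [orderOf_conj_eq, hu]
  have hsuM : c * u * c⁻¹ ∈ Subgroup.zpowers u₀ := by
    by_contra hno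
    have := hout _ hc hno
    omega
  have hzp : Subgroup.zpowers (c * u * c⁻¹) = Subgroup.zpowers u₀ :=
    a7d8_zpowers_eq u₀ _ hu4 hsuM hsu4
  refine ⟨S0.map (MulAut.conj c⁻¹).toMonoidHom, ?_, ?_, ?_⟩
  · rw [Subgroup.card_map_of_injective (MulAut.conj c⁻¹).injective, hS0]
  · refine ⟨c * u * c⁻¹, hc, ?_⟩
    show (MulAut.conj c⁻¹) (c * u * c⁻¹) = u
    rw [MulAut.conj_apply]
    group
  · rintro g ⟨s, hs, rfl⟩ hgu
    have hg : (MulAut.conj c⁻¹).toMonoidHom s = c⁻¹ * s * c := by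
      show (MulAut.conj c⁻¹) s = c⁻¹ * s * c
      rw [MulAut.conj_apply, inv_inv]
    rw [hg] at hgu ⊢
    rw [orderOf_conj_eq']
    apply hout s hs
    intro hsM
    apply hgu
    rw [← hzp] at hsM
    obtain ⟨j, rfl⟩ := Subgroup.mem_zpowers_iff.mp hsM
    rw [Subgroup.mem_zpowers_iff]
    refine ⟨j, ?_⟩
    have h1 : c⁻¹ * (c * u * c⁻¹) ^ j * c⁻¹⁻¹ = (c⁻¹ * (c * u * c⁻¹) * c⁻¹⁻¹) ^ j :=
      (conj_zpow).symm
    rw [inv_inv] at h1
    rw [h1]
    congr 1
    group

end Cfsg.Agent.Helper31
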