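import Cfsg.Agent.Helper81.SectionChar

/-!
# PIECE K3 of CALL S0999 (helper9): restriction of an irreducible character to a "dihedral"
subgroup `H ∪ Hτ`
-/

set_option autoImplicit false

open Cfsg

open scoped ComplexConjugate

namespace Cfsg.Agent.Helper31

universe u

/-- The subgroup `H ∪ Hτ` for an involution `τ` inverting `H`. -/
def brDih {G : Type u} [Group G] (H : Subgroup G) (τ : G) (hτ2 : τ * τ = 1)
    (hinv : ∀ x : G, x ∈ H → τ * x * τ⁻¹ = x⁻¹) : Subgroup G where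
  carrier := {g | g ∈ H ∨ g * τ ∈ H}
  mul_mem' := by
    intro a b ha hb
    rcases ha with ha | ha <;> rcases hb with hb | hb
    · exact Or.inl (H.mul_mem ha hb)
    · right
      rw [mul_assoc]
      exact H.mul_mem ha hb
    · right
      have h := hinv b⁻¹ (H.inv_mem hb)
      have e : a * b * τ = a * τ * b⁻¹ := by
        calc a * b * τ = a * (τ * b⁻¹ * τ⁻¹) * τ := by rw [h, inv_inv]
          _ = a * τ * b⁻¹ := by group
      rw [e]
      exact H.mul_mem ha (H.inv_mem hb)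
    · left
      have h := hinv (b * τ) hb
      have e : a * b = (a * τ) * (τ * (b * τ) * τ⁻¹) := by
        calc a * b = a * (τ * τ) * b := by rw [hτ2, mul_one]
          _ = (a * τ) * (τ * (b * τ) * τ⁻¹) := by group
      rw [e, h]
      exact H.mul_mem ha (H.inv_mem hb)
  one_mem' := Or.inl H.one_mem
  inv_mem' := by
    intro a ha
    rcases ha with ha | ha
    · exact Or.inl (H.inv_mem ha)
    · right
      have htinv : τ⁻¹ = τ := inv_eq_of_mul_eq_one_left hτ2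
      have h := hinv (a * τ)⁻¹ (H.inv_mem ha)
      have e : a⁻¹ * τ = τ * (a * τ)⁻¹ * τ⁻¹ := by
        conv_lhs => rw [← htinv]
        group
      rw [e, h, inv_inv]
      exact ha

theorem mem_brDih {G : Type u} [Group G] (H : Subgroup G) (τ : G) (hτ2 : τ * τ = 1)
    (hinv : ∀ x : G, x ∈ H → τ * x * τ⁻¹ = x⁻¹) (g : G) :
    g ∈ brDih H τ hτ2 hinv ↔ g ∈ H ∨ g * τ ∈ H := Iff.rfl

theorem brDih_mul_mem_iff {G : Type u} [Group G] (H : Subgroup G) (τ : G) (hτ2 : τ * τ = 1)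
    (hinv : ∀ x : G, x ∈ H → τ * x * τ⁻¹ = x⁻¹) (hτH : τ ∉ H) {a b : G}
    (ha : a ∈ brDih H τ hτ2 hinv) (hb : b ∈ brDih H τ hτ2 hinv) :
    a * b ∈ H ↔ (a ∈ H ↔ b ∈ H) := by
  have hnot : ∀ g : G, g ∈ H → g * τ ∉ H := by
    intro g hg hgt
    apply hτH
    have e : τ = g⁻¹ * (g * τ) := by group
    rw [e]
    exact H.mul_mem (H.inv_mem hg) hgt
  by_cases haH : a ∈ H
  · by_cases hbH : b ∈ H
    · exact ⟨fun _ => ⟨fun _ => hbH, fun _ => haH⟩, fun _ => H.mul_mem haH hbH⟩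
    · constructor
      · intro hab
        exfalso
        apply hbH
        have e : b = a⁻¹ * (a * b) := by group
        rw [e]
        exact H.mul_mem (H.inv_mem haH) hab
      · intro h
        exact absurd (h.mp haH) hbH
  · by_cases hbH : b ∈ H
    · constructor
      · intro hab
        exfalso
        apply haH
        have e : a = (a * b) * b⁻¹ := by group
        rw [e]
        exact H.mul_mem hab (H.inv_mem hbH)
      · intro h
        exact absurd (h.mpr hbH) haH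
    · have ha' : a * τ ∈ H := ha.resolve_left haH
      have hb' : b * τ ∈ H := hb.resolve_left hbH
      refine ⟨fun _ => ⟨fun h => absurd h haH, fun h => absurd h hbH⟩, fun _ => ?_⟩
      have h := hinv (b * τ) hb'
      have e : a * b = (a * τ) * (τ * (b * τ) * τ⁻¹) := by
        calc a * b = a * (τ * τ) * b := by rw [hτ2, mul_one]
          _ = (a * τ) * (τ * (b * τ) * τ⁻¹) := by group
      rw [e, h]
      exact H.mul_mem ha' (H.inv_mem hb')

open Classical in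
/-- The sign homomorphism of `H ∪ Hτ` with kernel `H`. -/
noncomputable def brSign {G : Type u} [Group G] (H : Subgroup G) (τ : G) (hτ2 : τ * τ = 1)
    (hinv : ∀ x : G, x ∈ H → τ * x * τ⁻¹ = x⁻¹) (hτH : τ ∉ H) :
    ↥(brDih H τ hτ2 hinv) →* ℂˣ where
  toFun := fun d => if (d : G) ∈ H then 1 else -1
  map_one' := by
    have : ((1 : ↥(brDih H τ hτ2 hinv)) : G) ∈ H := H.one_mem
    simp [this]
  map_mul' := by
    intro a b
    have h := brDih_mul_mem_iff H τ hτ2 hinv hτH a.2 b.2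
    have hab : ((a * b : ↥(brDih H τ hτ2 hinv)) : G) = (a : G) * (b : G) := rfl
    by_cases ha : (a : G) ∈ H <;> by_cases hb : (b : G) ∈ H <;> simp [hab, h, ha, hb]

open Classical in
/-- `H ⊕ H ≃ H ∪ Hτ`. -/
noncomputable def brEquiv {G : Type u} [Group G] (H : Subgroup G) (τ : G) (hτ2 : τ * τ = 1)
    (hinv : ∀ x : G, x ∈ H → τ * x * τ⁻¹ = x⁻¹) (hτH : τ ∉ H) :
    ↥H ⊕ ↥H ≃ ↥(brDih H τ hτ2 hinv) where
  toFun := fun s => match s with
    | Sum.inl x => ⟨(x : G), Or.inl x.2⟩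
    | Sum.inr x => ⟨(x : G) * τ, Or.inr (by rw [mul_assoc, hτ2, mul_one]; exact x.2)⟩
  invFun := fun d => if h : (d : G) ∈ H then Sum.inl ⟨d, h⟩
    else Sum.inr ⟨(d : G) * τ, d.2.resolve_left h⟩
  left_inv := by
    intro s
    rcases s with x | x
    · simp
    · have hx : (x : G) * τ ∉ H := by
        intro hgt
        apply hτH
        have e : τ = (x : G)⁻¹ * ((x : G) * τ) := by group
        rw [e]
        exact H.mul_mem (H.inv_mem x.2) hgt
      simp [hx, mul_assoc, hτ2]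
  right_inv := by
    intro d
    by_cases h : (d : G) ∈ H
    · simp [h]
    · simp [h, mul_assoc, hτ2]

/-- PIECE K3 -/
theorem br_dihedral {G : Type u} [Group G] [Finite G] (χ : Cfsg.IrrCharacter G) (H : Subgroup G)
    (hH : Odd (Nat.card H)) (τ : G) (hτ : orderOf τ = 2)
    (hinv : ∀ x : G, x ∈ H → τ * x * τ⁻¹ = x⁻¹) :
    ∃ m₁ m₂ : ℕ, (χ : G → ℂ) τ = (m₁ : ℂ) - (m₂ : ℂ) ∧
      ∑ᶠ x : H, (χ : G → ℂ) (x : G) = (Nat.card H : ℂ) * ((m₁ : ℂ) + (m₂ : ℂ)) := by
  classical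
  have hτ2 : τ * τ = 1 := by
    rw [← pow_two, ← hτ]
    exact pow_orderOf_eq_one τ
  have hτH : τ ∉ H := by
    intro h
    have h1 : orderOf τ ∣ Nat.card H := by
      have h2 := orderOf_dvd_natCard (⟨τ, h⟩ : H)
      rwa [Subgroup.orderOf_mk] at h2
    rw [hτ] at h1
    exact (Nat.not_even_iff_odd.mpr hH) (even_iff_two_dvd.mpr h1)
  have hχc : IsCharacter G (χ : G → ℂ) := Helper79.isCharacter_of_irr χ.2
  -- all elements of `Hτ` are conjugate to `τ`
  have hconj : ∀ x ∈ H, (χ : G → ℂ) (x * τ) = (χ : G → ℂ) τ := by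
    intro x hx
    obtain ⟨k, hk⟩ := hH
    have hxpow : x ^ (Nat.card H) = 1 := by
      have h2 : (⟨x, hx⟩ : H) ^ Nat.card H = 1 := pow_card_eq_one'
      have h3 : ((⟨x, hx⟩ : H) ^ Nat.card H : H).val = x ^ Nat.card H := rfl
      rw [← h3, h2]
      rfl
    have hy2 : x ^ (k + 1) * x ^ (k + 1) = x := by
      rw [← pow_add]
      have e : k + 1 + (k + 1) = Nat.card H + 1 := by omega
      rw [e, pow_succ, hxpow, one_mul]
    have hyH : x ^ (k + 1) ∈ H := H.pow_mem hx _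
    have h1 := hinv _ (H.inv_mem hyH)
    have e : x * τ = x ^ (k + 1) * τ * (x ^ (k + 1))⁻¹ := by
      calc x * τ = x ^ (k + 1) * x ^ (k + 1) * τ := by rw [hy2]
        _ = x ^ (k + 1) * (τ * (x ^ (k + 1))⁻¹ * τ⁻¹) * τ := by rw [h1, inv_inv]
        _ = x ^ (k + 1) * τ * (x ^ (k + 1))⁻¹ := by group
    rw [e, Helper79.isCharacter_conj_eq hχc]
  have instD : Fintype ↥(brDih H τ hτ2 hinv) := Fintype.ofFinite _
  have instH : Fintype ↥H := Fintype.ofFinite _
  -- the two multiplicities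
  obtain ⟨m₁, hm₁⟩ := Helper81.exists_linMult χ (brDih H τ hτ2 hinv).subtype
    (1 : ↥(brDih H τ hτ2 hinv) →* ℂˣ)
  obtain ⟨m₂, hm₂⟩ := Helper81.exists_linMult χ (brDih H τ hτ2 hinv).subtype
    (brSign H τ hτ2 hinv hτH)
  have hcardD : (Fintype.card ↥(brDih H τ hτ2 hinv) : ℂ) = 2 * (Fintype.card ↥H : ℂ) := by
    rw [← Fintype.card_congr (brEquiv H τ hτ2 hinv hτH), Fintype.card_sum]
    push_cast
    ring
  have hnot : ∀ x : H, (x : G) * τ ∉ H := by
    intro x hgt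
    apply hτH
    have e : τ = (x : G)⁻¹ * ((x : G) * τ) := by group
    rw [e]
    exact H.mul_mem (H.inv_mem x.2) hgt
  -- split the sums over `H ∪ Hτ`
  have hsplit : ∀ F : ↥(brDih H τ hτ2 hinv) → ℂ,
      ∑ d, F d = ∑ x : H, F (brEquiv H τ hτ2 hinv hτH (Sum.inl x)) +
        ∑ x : H, F (brEquiv H τ hτ2 hinv hτH (Sum.inr x)) := by
    intro F
    rw [← Fintype.sum_equiv (brEquiv H τ hτ2 hinv hτH)
      (fun s => F (brEquiv H τ hτ2 hinv hτH s)) F (fun _ => rfl), Fintype.sum_sum_type]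
  have hval_l : ∀ x : H, ((brEquiv H τ hτ2 hinv hτH (Sum.inl x) : ↥(brDih H τ hτ2 hinv)) : G)
      = (x : G) := fun x => rfl
  have hval_r : ∀ x : H, ((brEquiv H τ hτ2 hinv hτH (Sum.inr x) : ↥(brDih H τ hτ2 hinv)) : G)
      = (x : G) * τ := fun x => rfl
  have hsign_l : ∀ x : H, brSign H τ hτ2 hinv hτH (brEquiv H τ hτ2 hinv hτH (Sum.inl x)) = 1 := by
    intro x
    show (if ((brEquiv H τ hτ2 hinv hτH (Sum.inl x) : ↥(brDih H τ hτ2 hinv)) : G) ∈ H
      then (1 : ℂˣ) else -1) = 1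
    rw [hval_l, if_pos x.2]
  have hsign_r : ∀ x : H, brSign H τ hτ2 hinv hτH (brEquiv H τ hτ2 hinv hτH (Sum.inr x)) = -1 := by
    intro x
    show (if ((brEquiv H τ hτ2 hinv hτH (Sum.inr x) : ↥(brDih H τ hτ2 hinv)) : G) ∈ H
      then (1 : ℂˣ) else -1) = -1
    rw [hval_r, if_neg (hnot x)]
  rw [hsplit, hcardD] at hm₁ hm₂
  have e1 : ∑ x : H, (χ : G → ℂ) (x : G) + (Fintype.card ↥H : ℂ) * (χ : G → ℂ) τ =
      2 * (Fintype.card ↥H : ℂ) * m₁ := by
    rw [← hm₁]
    congr 1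
    · apply Finset.sum_congr rfl
      intro x _
      simp [hval_l]
    · rw [Finset.sum_congr rfl (fun x _ => by
        show (χ : G → ℂ) ((brDih H τ hτ2 hinv).subtype (brEquiv H τ hτ2 hinv hτH (Sum.inr x))) *
          conj ((((1 : ↥(brDih H τ hτ2 hinv) →* ℂˣ) (brEquiv H τ hτ2 hinv hτH (Sum.inr x)) : ℂˣ)) : ℂ)
          = (χ : G → ℂ) τ
        rw [Subgroup.coe_subtype, hval_r, hconj _ x.2]
        simp)]
      rw [Finset.sum_const, Finset.card_univ, nsmul_eq_mul]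
  have e2 : ∑ x : H, (χ : G → ℂ) (x : G) - (Fintype.card ↥H : ℂ) * (χ : G → ℂ) τ =
      2 * (Fintype.card ↥H : ℂ) * m₂ := by
    rw [← hm₂, sub_eq_add_neg]
    congr 1
    · apply Finset.sum_congr rfl
      intro x _
      rw [hsign_l]
      simp [hval_l]
    · rw [Finset.sum_congr rfl (fun x _ => by
        show (χ : G → ℂ) ((brDih H τ hτ2 hinv).subtype (brEquiv H τ hτ2 hinv hτH (Sum.inr x))) *
          conj (((brSign H τ hτ2 hinv hτH (brEquiv H τ hτ2 hinv hτH (Sum.inr x)) : ℂˣ)) : ℂ)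
          = -(χ : G → ℂ) τ
        rw [Subgroup.coe_subtype, hval_r, hconj _ x.2, hsign_r]
        simp)]
      rw [Finset.sum_const, Finset.card_univ, nsmul_eq_mul, mul_neg]
  have hN : (Fintype.card ↥H : ℂ) ≠ 0 := by
    have : Fintype.card ↥H ≠ 0 := Fintype.card_ne_zero
    exact_mod_cast this
  refine ⟨m₁, m₂, ?_, ?_⟩
  · have h : (Fintype.card ↥H : ℂ) * (χ : G → ℂ) τ = (Fintype.card ↥H : ℂ) * ((m₁ : ℂ) - (m₂ : ℂ)) := by
      linear_combination (e1 - e2) / 2
    exact mul_left_cancel₀ hN h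
  · rw [finsum_eq_sum_of_fintype, Nat.card_eq_fintype_card]
    linear_combination (e1 + e2) / 2

end Cfsg.Agent.Helper31
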