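import Mathlib

set_option autoImplicit false

/-!
# CALL S3413 (helper52), piece NORM
-/

namespace Cfsg.Agent.Helper31

open Subgroup

/-- NORM -/
theorem cgm_card_sylow_mul_normalizer {G : Type*} [Group G] [Finite G] (p : ℕ) [Fact p.Prime]
    (P : Sylow p G) :
    Nat.card (Sylow p G) * Nat.card ↥(normalizer ((P : Subgroup G) : Set G)) = Nat.card G := by
  rw [Sylow.card_eq_index_normalizer P, mul_comm]
  exact Subgroup.card_mul_index _

end Cfsg.Agent.Helper31
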