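import Mathlib

set_option autoImplicit false

/-!
# CALL S3413 (helper52), piece SYLP
-/

namespace Cfsg.Agent.Helper31

open Subgroup

/-- SYLP -/
theorem cgm_sylow_card_prime {G : Type*} [Group G] [Finite G] (p : ℕ) [Fact p.Prime]
    (hp : p ∣ Nat.card G) (hp2 : ¬ p ^ 2 ∣ Nat.card G) (P : Sylow p G) :
    Nat.card ↥(P : Subgroup G) = p := by
  have hpp : p.Prime := Fact.out
  have hG0 : Nat.card G ≠ 0 := Nat.card_pos.ne'
  rw [Sylow.card_eq_multiplicity]
  have h1 : 1 ≤ (Nat.card G).factorization p :=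
    (hpp.dvd_iff_one_le_factorization hG0).mp hp
  have h2 : ¬ 2 ≤ (Nat.card G).factorization p := by
    intro h
    exact hp2 ((hpp.pow_dvd_iff_le_factorization hG0).mpr h)
  have h3 : (Nat.card G).factorization p = 1 := by omega
  rw [h3, pow_one]

end Cfsg.Agent.Helper31
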