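import Mathlib
import Cfsg.Agent.Helper87.MetaEnd
import Cfsg.Agent.Helper87.OddFix
import Cfsg.Agent.Helper88.ChainStab

/-!
# Automorphisms of order prime to `p` of a nonabelian metacyclic `p`-group, `p` odd (helper31)

For an odd prime `p` and a nonabelian metacyclic `p`-group `R`, every subgroup of `Aut(R)` of order
prime to `p` is abelian of exponent dividing `p - 1`.  Also: a metacyclic abelian `p`-group has no
direct factor decomposition `C × C × H` with `C` cyclic of order `p ^ n`, `n > 0`, and `H ≠ 1`.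
-/

set_option autoImplicit false

namespace Cfsg.Agent.Helper31

section MetaAut

universe u

variable {R : Type u} [Group R]

/-- Restriction of the automorphisms of `R` to a subgroup preserved by all of them. -/
def omegaRes (V : Subgroup R) (hV : ∀ (α : MulAut R) (x : R), x ∈ V → α x ∈ V) :
    MulAut R →* MulAut V where
  toFun α :=
    { toFun := fun x => ⟨α x, hV α x x.2⟩
      invFun := fun x => ⟨α⁻¹ x, hV α⁻¹ x x.2⟩
      left_inv := fun x => Subtype.ext (MulAut.inv_apply_self _ _ _)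
      right_inv := fun x => Subtype.ext (MulAut.apply_inv_self _ _ _)
      map_mul' := fun x y => Subtype.ext (map_mul α (x : R) (y : R)) }
  map_one' := by ext x; rfl
  map_mul' := fun α β => by ext x; rfl

theorem omegaRes_apply (V : Subgroup R) (hV : ∀ (α : MulAut R) (x : R), x ∈ V → α x ∈ V)
    (α : MulAut R) (x : V) : ((omegaRes V hV α x : V) : R) = α (x : R) := rfl

/-- The chain `1 ≤ L ≤ V`. -/
def chainTwo {V : Type*} [Group V] (L : Subgroup V) : ℕ → Subgroup V
  | 0 => ⊥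
  | 1 => L
  | _ => ⊤

/-- Let `p` be an odd prime and `R` a nonabelian metacyclic `p`-group.  Then every subgroup of `Aut(R)` of
order prime to `p` is abelian, of exponent dividing `p - 1`. -/
theorem odd_meta_aut [Finite R] {p : ℕ} [Fact p.Prime] (hp : p ≠ 2) (hR : IsPGroup p R)
    (N : Subgroup R) [N.Normal] (hN : IsCyclic N) (hQ : IsCyclic (R ⧸ N))
    (hnc : ¬ ∀ x y : R, x * y = y * x) (H : Subgroup (MulAut R)) (hH : (Nat.card H).Coprime p) :
    (∀ a ∈ H, ∀ b ∈ H, a * b = b * a) ∧ ∀ h ∈ H, h ^ (p - 1) = 1 := by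
  classical
  have hpp : p.Prime := Fact.out
  let V : Subgroup R :=
    { carrier := {x | x ^ p = 1}
      mul_mem' := fun {a b} ha hb => Helper87.mul_pow_prime_eq_one hp hR N hN hQ a b ha hb
      one_mem' := one_pow p
      inv_mem' := fun {a} ha => by
        show (a⁻¹) ^ p = 1
        rw [inv_pow, ha, inv_one] }
  have hVmem : ∀ x : R, x ∈ V ↔ x ^ p = 1 := fun x => Iff.rfl
  have hVcard : Nat.card V ≤ p ^ 2 := Helper87.card_omega_le N hN hQ V (fun x hx => hx)
  have hVchar : ∀ (α : MulAut R) (x : R), x ∈ V → α x ∈ V := by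
    intro α x hx
    rw [hVmem] at hx ⊢
    rw [← map_pow, hx, map_one]
  -- an element of order `p` in the commutator subgroup
  push Not at hnc
  obtain ⟨x, y, hxy⟩ := hnc
  have hcN : x * y * x⁻¹ * y⁻¹ ∈ N := Helper87.comm_mem_of_isCyclic_quotient N hQ x y
  have hc1 : x * y * x⁻¹ * y⁻¹ ≠ 1 := by
    intro h
    apply hxy
    have : x * y = (x * y * x⁻¹ * y⁻¹) * (y * x) := by group
    rw [this, h, one_mul]
  obtain ⟨j, hj1, hjp⟩ := Helper87.exists_pow_order_p (p := p) (x * y * x⁻¹ * y⁻¹)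
    ((IsPGroup.iff_orderOf.mp hR _).imp (fun k hk => by rw [← hk]; exact pow_orderOf_eq_one _)) hc1
  obtain ⟨c₀, hc₀⟩ : ∃ c₀ : R, c₀ = (x * y * x⁻¹ * y⁻¹) ^ j := ⟨_, rfl⟩
  rw [← hc₀] at hj1 hjp
  have hc₀N : c₀ ∈ N := by rw [hc₀]; exact N.pow_mem hcN j
  have hc₀V : c₀ ∈ V := hjp
  have hc₀ord : orderOf c₀ = p := orderOf_eq_prime hjp hj1
  have hαc : ∀ α : MulAut R, α c₀ ∈ Subgroup.zpowers c₀ := by
    intro α
    have h1 : α c₀ ∈ N := by
      rw [hc₀, map_pow]
      apply N.pow_mem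
      simp only [map_mul, map_inv]
      exact Helper87.comm_mem_of_isCyclic_quotient N hQ (α x) (α y)
    have h2 : (α c₀) ^ p = 1 := by rw [← map_pow, hjp, map_one]
    have hNi := hN
    have h3 := Helper87.mem_zpowers_of_pow_eq_one (p := p) (C := N) ⟨α c₀, h1⟩ ⟨c₀, hc₀N⟩
      (Subtype.ext h2) (Subtype.ext hjp) (fun h => hj1 (congrArg Subtype.val h))
    obtain ⟨k, hk⟩ := Subgroup.mem_zpowers_iff.mp h3
    refine Subgroup.mem_zpowers_iff.mpr ⟨k, ?_⟩
    have := congrArg (fun z : N => (z : R)) hk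
    simpa using this
  have hLV : Subgroup.zpowers c₀ ≤ V := by
    rw [Subgroup.zpowers_le]
    exact hc₀V
  have hLN : Subgroup.zpowers c₀ ≤ N := by
    rw [Subgroup.zpowers_le]
    exact hc₀N
  have hLcent : ∀ w ∈ Subgroup.zpowers c₀, ∀ g : R, g * w * g⁻¹ = w := fun w hw g =>
    Helper87.conj_eq_of_pow_eq_one hR N hN g w (hLN hw) (hLV hw)
  obtain ⟨L', hL'⟩ : ∃ L' : Subgroup V, L' = (Subgroup.zpowers c₀).subgroupOf V := ⟨_, rfl⟩
  have hL'mem : ∀ v : V, v ∈ L' ↔ (v : R) ∈ Subgroup.zpowers c₀ := fun v => by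
    rw [hL']
    exact Subgroup.mem_subgroupOf
  have hL'card : Nat.card L' = p := by
    rw [hL', Nat.card_congr (Subgroup.subgroupOfEquivOfLe hLV).toEquiv, Nat.card_zpowers, hc₀ord]
  have hL'norm : L'.Normal := by
    refine ⟨fun n hn g => ?_⟩
    rw [hL'mem] at hn ⊢
    have := hLcent _ hn (g : R)
    rw [Subgroup.coe_mul, Subgroup.coe_mul, Subgroup.coe_inv, this]
    exact hn
  have hPV : IsPGroup p V := hR.to_subgroup V
  have hD : Helper88.CycChain (chainTwo L') 2 := by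
    refine ⟨rfl, rfl, ?_, ?_, ?_⟩
    · intro j hj
      match j, hj with
      | 0, _ => exact bot_le
      | 1, _ => exact le_top
    · intro j hj
      match j, hj with
      | 0, _ => exact (inferInstance : (⊥ : Subgroup V).Normal)
      | 1, _ => exact hL'norm
    · intro j hj
      match j, hj with
      | 0, _ =>
        refine ⟨⟨c₀, hc₀V⟩, (hL'mem _).mpr (Subgroup.mem_zpowers c₀), fun y hy => ?_⟩
        obtain ⟨k, hk⟩ := Subgroup.mem_zpowers_iff.mp ((hL'mem y).mp hy)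
        refine ⟨k, ?_⟩
        show _ ∈ (⊥ : Subgroup V)
        rw [Subgroup.mem_bot]
        apply Subtype.ext
        rw [Subgroup.coe_mul, Subgroup.coe_inv, Subgroup.coe_zpow, Subgroup.coe_one]
        show (c₀ ^ k)⁻¹ * (y : R) = 1
        rw [hk, inv_mul_cancel]
      | 1, _ =>
        show ∃ y₀ ∈ (⊤ : Subgroup V), ∀ y ∈ (⊤ : Subgroup V), ∃ k : ℤ, (y₀ ^ k)⁻¹ * y ∈ L'
        by_cases hVL : ∀ v : V, v ∈ L'
        · exact ⟨1, Subgroup.mem_top _, fun y _ => ⟨0, by simpa using hVL y⟩⟩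
        · push Not at hVL
          obtain ⟨v₀, hv₀⟩ := hVL
          refine ⟨v₀, Subgroup.mem_top _, fun y _ => ?_⟩
          have hne : (QuotientGroup.mk v₀ : V ⧸ L') ≠ 1 := fun h => hv₀ ((QuotientGroup.eq_one_iff _).mp h)
          have hmul : Nat.card V = Nat.card (V ⧸ L') * Nat.card L' :=
            Subgroup.card_eq_card_quotient_mul_card_subgroup L'
          rw [hL'card] at hmul
          have hle : Nat.card (V ⧸ L') ≤ p := by
            have h1 : Nat.card (V ⧸ L') * p ≤ p * p := by rw [← hmul, ← sq]; exact hVcard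
            exact Nat.le_of_mul_le_mul_right h1 hpp.pos
          obtain ⟨a, ha⟩ := IsPGroup.iff_card.mp (hPV.to_quotient L')
          have ha1 : a = 1 := by
            rcases a with _ | _ | a
            · exfalso
              rw [pow_zero] at ha
              have := (Nat.card_eq_one_iff_unique.mp ha).1
              exact hne (Subsingleton.elim _ _)
            · rfl
            · exfalso
              rw [ha] at hle
              have h2 : p ^ 2 ≤ p ^ (a + 1 + 1) := Nat.pow_le_pow_right hpp.pos (by omega)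
              have h3 : p < p ^ 2 := by
                have := hpp.one_lt
                nlinarith
              omega
          rw [ha1, pow_one] at ha
          have hmem := mem_zpowers_of_prime_card ha hne (g' := (QuotientGroup.mk y : V ⧸ L'))
          obtain ⟨k, hk⟩ := Subgroup.mem_zpowers_iff.mp hmem
          refine ⟨k, ?_⟩
          apply QuotientGroup.eq.mp
          rw [QuotientGroup.mk_zpow]
          exact hk
  obtain ⟨ρ, hρ⟩ : ∃ ρ : MulAut R →* MulAut V, ∀ (α : MulAut R) (x : V), ((ρ α x : V) : R) = α (x : R) :=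
    ⟨omegaRes V hVchar, fun α x => rfl⟩
  have hinv : ∀ α : MulAut R, ρ α ∈ Helper88.chainInv (chainTwo L') 2 := by
    have key : ∀ (β : MulAut R) (j : ℕ), j ≤ 2 → ∀ y ∈ chainTwo L' j, ρ β y ∈ chainTwo L' j := by
      intro β j hj y hy
      match j, hj, hy with
      | 0, _, hy =>
        have hy' : y = 1 := Subgroup.mem_bot.mp hy
        rw [hy', map_one]
        exact Subgroup.one_mem _
      | 1, _, hy =>
        show ρ β y ∈ L'
        have hy' : y ∈ L' := hy
        rw [hL'mem] at hy' ⊢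
        obtain ⟨k, hk⟩ := Subgroup.mem_zpowers_iff.mp hy'
        rw [hρ, ← hk, map_zpow]
        exact Subgroup.zpow_mem _ (hαc β) k
      | 2, _, _ => exact Subgroup.mem_top _
    intro α j hj y hy
    refine ⟨key α j hj y hy, ?_⟩
    rw [← map_inv]
    exact key α⁻¹ j hj y hy
  have hcardpow : ∀ g ∈ H, g ^ Nat.card H = 1 := by
    intro g hg
    have := pow_card_eq_one' (G := H) (x := ⟨g, hg⟩)
    exact congrArg Subtype.val this
  have hkill : ∀ g ∈ H, ρ g ∈ Helper88.chainStab (chainTwo L') 2 hD.mono → g = 1 := by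
    intro g hg hst
    have hstab := Helper88.chainStab_isPGroup hPV hD.bot hD.top hD.mono
    obtain ⟨e, he⟩ := hstab ⟨ρ g, hst⟩
    have he' : ρ (g ^ (p ^ e)) = 1 := by
      rw [map_pow]
      exact congrArg Subtype.val he
    have hfix : ∀ x : R, x ^ p = 1 → (g ^ (p ^ e)) x = x := by
      intro x hx
      have h1 := hρ (g ^ (p ^ e)) ⟨x, hx⟩
      rw [he'] at h1
      exact h1.symm
    have hgm : g ^ Nat.card H = 1 := hcardpow g hg
    have h1 : g ^ (p ^ e) = 1 :=
      Helper87.mulAut_eq_one_of_fix_order_p p hp hR (Nat.card H) hH (g ^ (p ^ e))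
        (by rw [← pow_mul, mul_comm, pow_mul, hgm, one_pow]) hfix
    have hd1 : orderOf g ∣ p ^ e := orderOf_dvd_of_pow_eq_one h1
    have hd2 : orderOf g ∣ Nat.card H := orderOf_dvd_of_pow_eq_one hgm
    have hd := Nat.dvd_gcd hd1 hd2
    rw [Nat.Coprime.gcd_eq_one (Nat.Coprime.pow_left e hH.symm)] at hd
    exact orderOf_eq_one_iff.mp (Nat.dvd_one.mp hd)
  refine ⟨fun a ha b hb => ?_, fun h hh => ?_⟩
  · have hg : a * b * a⁻¹ * b⁻¹ ∈ H :=
      H.mul_mem (H.mul_mem (H.mul_mem ha hb) (H.inv_mem ha)) (H.inv_mem hb)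
    have hst : ρ (a * b * a⁻¹ * b⁻¹) ∈ Helper88.chainStab (chainTwo L') 2 hD.mono := by
      rw [map_mul, map_mul, map_mul, map_inv, map_inv]
      exact Helper88.chain_comm_mem hD (hinv a) (hinv b)
    have h1 := hkill _ hg hst
    calc a * b = (a * b * a⁻¹ * b⁻¹) * (b * a) := by group
      _ = b * a := by rw [h1, one_mul]
  · have hst : ρ (h ^ (p - 1)) ∈ Helper88.chainStab (chainTwo L') 2 hD.mono := by
      rw [map_pow]
      exact Helper88.chain_pow_mem hPV hD (hinv h) hH (by rw [← map_pow, hcardpow h hh, map_one])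
    exact hkill _ (H.pow_mem hh _) hst

end MetaAut

section Rank

/-- A metacyclic `p`-group is not of the form `C × C × H` with `C` cyclic of order `p ^ n`, `n > 0`,
and `H` nontrivial. -/
theorem meta_prod_subsingleton {R : Type*} [Group R] [Finite R] {p : ℕ} [Fact p.Prime] (hR : IsPGroup p R)
    (N : Subgroup R) [N.Normal] (hN : IsCyclic N) (hQ : IsCyclic (R ⧸ N))
    (hab : ∀ x y : R, x * y = y * x) {n : ℕ} (hn : 0 < n) {H : Type*} [CommGroup H]
    (e : R ≃* (Multiplicative (ZMod (p ^ n)) × Multiplicative (ZMod (p ^ n))) × H) :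
    Subsingleton H := by
  classical
  have hpp : p.Prime := Fact.out
  by_contra hsub
  rw [not_subsingleton_iff_nontrivial] at hsub
  obtain ⟨h, hh⟩ := exists_ne (1 : H)
  -- an element of order `p` in `H`
  have hpow : ∃ k : ℕ, h ^ (p ^ k) = 1 := by
    obtain ⟨k, hk⟩ := IsPGroup.iff_orderOf.mp hR (e.symm ((1, 1), h))
    refine ⟨k, ?_⟩
    have h1 : (e.symm ((1, 1), h)) ^ (p ^ k) = 1 := by rw [← hk]; exact pow_orderOf_eq_one _
    have h2 := congrArg e h1
    rw [map_pow, MulEquiv.apply_symm_apply, map_one] at h2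
    have h3 := congrArg Prod.snd h2
    simpa using h3
  obtain ⟨j, hj1, hjp⟩ := Helper87.exists_pow_order_p (p := p) h hpow hh
  obtain ⟨h₀, hh₀⟩ : ∃ h₀ : H, h₀ = h ^ j := ⟨_, rfl⟩
  rw [← hh₀] at hj1 hjp
  have hh₀ord : orderOf h₀ = p := orderOf_eq_prime hjp hj1
  -- an element of order `p` in the cyclic group
  obtain ⟨a₀, ha₀⟩ : ∃ a₀ : Multiplicative (ZMod (p ^ n)),
      a₀ = Multiplicative.ofAdd (((p ^ (n - 1) : ℕ) : ZMod (p ^ n))) := ⟨_, rfl⟩
  have ha₀p : a₀ ^ p = 1 := by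
    rw [ha₀, ← ofAdd_nsmul, nsmul_eq_mul, ← Nat.cast_mul, ← pow_succ']
    have : n - 1 + 1 = n := by omega
    rw [this, ZMod.natCast_self]
    rfl
  have ha₀1 : a₀ ≠ 1 := by
    rw [ha₀]
    intro h1
    have h2 : ((p ^ (n - 1) : ℕ) : ZMod (p ^ n)) = 0 := h1
    rw [ZMod.natCast_eq_zero_iff] at h2
    have h3 := Nat.le_of_dvd (pow_pos hpp.pos _) h2
    have h4 : p ^ (n - 1) < p ^ n := Nat.pow_lt_pow_right hpp.one_lt (by omega)
    omega
  have ha₀ord : orderOf a₀ = p := orderOf_eq_prime ha₀p ha₀1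
  let Vg : Subgroup R :=
    { carrier := {x | x ^ p = 1}
      mul_mem' := fun {a b} ha hb => by
        show (a * b) ^ p = 1
        have hc : Commute a b := hab a b
        rw [hc.mul_pow, ha, hb, one_mul]
      one_mem' := one_pow p
      inv_mem' := fun {a} ha => by
        show (a⁻¹) ^ p = 1
        rw [inv_pow, ha, inv_one] }
  have hVcard : Nat.card Vg ≤ p ^ 2 := Helper87.card_omega_le N hN hQ Vg (fun x hx => hx)
  let f : Fin p × Fin p × Fin p → Vg := fun t =>
    ⟨e.symm ((a₀ ^ (t.1 : ℕ), a₀ ^ (t.2.1 : ℕ)), h₀ ^ (t.2.2 : ℕ)), by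
      show (e.symm ((a₀ ^ (t.1 : ℕ), a₀ ^ (t.2.1 : ℕ)), h₀ ^ (t.2.2 : ℕ))) ^ p = 1
      rw [← map_pow]
      have : ((a₀ ^ (t.1 : ℕ), a₀ ^ (t.2.1 : ℕ)), h₀ ^ (t.2.2 : ℕ)) ^ p =
          (1 : (Multiplicative (ZMod (p ^ n)) × Multiplicative (ZMod (p ^ n))) × H) := by
        refine Prod.ext (Prod.ext ?_ ?_) ?_
        · show (a₀ ^ (t.1 : ℕ)) ^ p = 1
          rw [pow_right_comm, ha₀p, one_pow]
        · show (a₀ ^ (t.2.1 : ℕ)) ^ p = 1
          rw [pow_right_comm, ha₀p, one_pow]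
        · show (h₀ ^ (t.2.2 : ℕ)) ^ p = 1
          rw [pow_right_comm, hjp, one_pow]
      rw [this, map_one]⟩
  have hfinj : Function.Injective f := by
    intro s t hst
    have h1 : e.symm ((a₀ ^ (s.1 : ℕ), a₀ ^ (s.2.1 : ℕ)), h₀ ^ (s.2.2 : ℕ)) =
        e.symm ((a₀ ^ (t.1 : ℕ), a₀ ^ (t.2.1 : ℕ)), h₀ ^ (t.2.2 : ℕ)) := congrArg Subtype.val hst
    have h2 := e.symm.injective h1
    have h3 : a₀ ^ (s.1 : ℕ) = a₀ ^ (t.1 : ℕ) := congrArg (fun z => z.1.1) h2
    have h4 : a₀ ^ (s.2.1 : ℕ) = a₀ ^ (t.2.1 : ℕ) := congrArg (fun z => z.1.2) h2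
    have h5 : h₀ ^ (s.2.2 : ℕ) = h₀ ^ (t.2.2 : ℕ) := congrArg (fun z => z.2) h2
    have hinjA : ∀ i k : Fin p, a₀ ^ (i : ℕ) = a₀ ^ (k : ℕ) → i = k := by
      intro i k hik
      apply Fin.ext
      exact pow_injOn_Iio_orderOf (by rw [Set.mem_Iio, ha₀ord]; exact i.2)
        (by rw [Set.mem_Iio, ha₀ord]; exact k.2) hik
    have hinjH : ∀ i k : Fin p, h₀ ^ (i : ℕ) = h₀ ^ (k : ℕ) → i = k := by
      intro i k hik
      apply Fin.ext
      exact pow_injOn_Iio_orderOf (by rw [Set.mem_Iio, hh₀ord]; exact i.2)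
        (by rw [Set.mem_Iio, hh₀ord]; exact k.2) hik
    exact Prod.ext (hinjA _ _ h3) (Prod.ext (hinjA _ _ h4) (hinjH _ _ h5))
  have hc := Nat.card_le_card_of_injective f hfinj
  rw [Nat.card_prod, Nat.card_prod, Nat.card_fin] at hc
  have h2 : p * (p * p) ≤ p ^ 2 := hc.trans hVcard
  have h3 := hpp.one_lt
  nlinarith

end Rank

end Cfsg.Agent.Helper31
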