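import Mathlib
import Cfsg.Agent.Helper85.Realized
import Cfsg.Agent.Helper87.NormalCrit

/-!
# The fusion system realized by an embedding into a finite group (helper31)

For an injective homomorphism `ι : S →* G` the maps induced by conjugation in `G` form a fusion
system `realSys ι` over `S`, realized by `ι`.  If `S` is normal in every saturated fusion system over
`S`, then `G`-conjugate elements of `ι(S)` (for `ι(S)` a Sylow subgroup) are conjugate under `Aut(S)`.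
-/

set_option autoImplicit false

namespace Cfsg.Agent.Helper31

open Cfsg

section Real

variable {Ω : Type*} [Group Ω] {S : Subgroup Ω}

/-- The fusion system over `S` of the maps induced by conjugation in `G`, read through `ι`. -/
def realSys {G : Type*} [Group G] (ι : S →* G) (hι : Function.Injective ι) : FusionSystem S where
  Hom P := {φ | ∃ (hP : P ≤ S) (hφ : ∀ x : P, φ x ∈ S), ∃ g : G,
    ∀ x : P, ι ⟨φ x, hφ x⟩ = g * ι ⟨x, hP x.2⟩ * g⁻¹}
  le_of_mem := fun ⟨hP, hφ, _⟩ => ⟨hP, hφ⟩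
  injective_of_mem := by
    rintro P φ ⟨hP, hφ, g, hg⟩ a b hab
    have h1 : ι ⟨φ a, hφ a⟩ = ι ⟨φ b, hφ b⟩ := congrArg ι (Subtype.ext hab)
    rw [hg a, hg b] at h1
    have h2 : ι ⟨a, hP a.2⟩ = ι ⟨b, hP b.2⟩ := mul_left_cancel (mul_right_cancel h1)
    exact Subtype.ext (congrArg (fun s : S => (s : Ω)) (hι h2))
  conj_mem := by
    intro P g hP hg
    refine ⟨hP, fun x => S.mul_mem (S.mul_mem hg (hP x.2)) (S.inv_mem hg), ι ⟨g, hg⟩, fun x => ?_⟩
    rw [← map_inv, ← map_mul, ← map_mul]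
    rfl
  comp_mem := by
    rintro P Q φ ψ ⟨hP, hφ, h, hc⟩ ⟨hQ, hψ, k, hd⟩ hPQ
    refine ⟨hP, fun x => hψ _, k * h, fun x => ?_⟩
    have h1 : ι ⟨ψ (φ.codRestrict Q hPQ x), hψ _⟩ = k * ι ⟨φ x, hφ x⟩ * k⁻¹ :=
      hd (φ.codRestrict Q hPQ x)
    rw [hc x] at h1
    show ι ⟨ψ (φ.codRestrict Q hPQ x), hψ _⟩ = _
    rw [h1]
    group
  inv_mem := by
    rintro P φ ⟨hP, hφ, h, hc⟩
    have hinj : Function.Injective φ := by
      intro a b hab
      have h1 : ι ⟨φ a, hφ a⟩ = ι ⟨φ b, hφ b⟩ := congrArg ι (Subtype.ext hab)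
      rw [hc a, hc b] at h1
      have h2 : ι ⟨a, hP a.2⟩ = ι ⟨b, hP b.2⟩ := mul_left_cancel (mul_right_cancel h1)
      exact Subtype.ext (congrArg (fun s : S => (s : Ω)) (hι h2))
    obtain ⟨ψ, hψ⟩ : ∃ ψ : φ.range →* Ω, ∀ x : P, ψ ⟨φ x, ⟨x, rfl⟩⟩ = (x : Ω) := by
      refine ⟨P.subtype.comp (MonoidHom.ofInjective hinj).symm.toMonoidHom, fun x => ?_⟩
      show (((MonoidHom.ofInjective hinj).symm ⟨φ x, ⟨x, rfl⟩⟩ : P) : Ω) = x
      have : (MonoidHom.ofInjective hinj).symm ⟨φ x, ⟨x, rfl⟩⟩ = x :=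
        (MonoidHom.ofInjective hinj).symm_apply_apply x
      rw [this]
    have hψS : ∀ y : φ.range, ψ y ∈ S := by
      rintro ⟨_, x, rfl⟩
      rw [hψ]
      exact hP x.2
    refine ⟨ψ, ⟨?_, hψS, h⁻¹, ?_⟩, hψ⟩
    · rintro _ ⟨x, rfl⟩
      exact hφ x
    · rintro ⟨_, x, rfl⟩
      have h1 : (⟨ψ ⟨φ x, ⟨x, rfl⟩⟩, hψS _⟩ : S) = ⟨x, hP x.2⟩ := Subtype.ext (hψ x)
      rw [h1]
      show ι ⟨x, hP x.2⟩ = h⁻¹ * ι ⟨φ x, hφ x⟩ * h⁻¹⁻¹
      rw [hc x]
      group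

theorem realSys_realized {G : Type*} [Group G] (ι : S →* G) (hι : Function.Injective ι) :
    (realSys ι hι).IsRealizedBy ι :=
  ⟨hι, fun _ hP _ hφ => ⟨fun ⟨_, _, g, hg⟩ => ⟨g, hg⟩, fun ⟨g, hg⟩ => ⟨hP, hφ, g, hg⟩⟩⟩

/-- Conjugation by `g`, pulled back along `ι`, on a subgroup `R ≤ S` that it maps into `ι(S)`. -/
noncomputable def conjPull {G : Type*} [Group G] (ι : S →* G) (hι : Function.Injective ι) (g : G)
    (R : Subgroup Ω) (hR : R ≤ S) (h : ∀ x : R, g * ι ⟨x, hR x.2⟩ * g⁻¹ ∈ ι.range) : R →* Ω :=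
  S.subtype.comp ((MonoidHom.ofInjective hι).symm.toMonoidHom.comp
    (((MulAut.conj g).toMonoidHom.comp (ι.comp (Subgroup.inclusion hR))).codRestrict ι.range h))

theorem conjPull_mem {G : Type*} [Group G] (ι : S →* G) (hι : Function.Injective ι) (g : G)
    (R : Subgroup Ω) (hR : R ≤ S) (h : ∀ x : R, g * ι ⟨x, hR x.2⟩ * g⁻¹ ∈ ι.range) (x : R) :
    conjPull ι hι g R hR h x ∈ S :=
  ((MonoidHom.ofInjective hι).symm ⟨g * ι ⟨x, hR x.2⟩ * g⁻¹, h x⟩).2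

theorem conjPull_spec {G : Type*} [Group G] (ι : S →* G) (hι : Function.Injective ι) (g : G)
    (R : Subgroup Ω) (hR : R ≤ S) (h : ∀ x : R, g * ι ⟨x, hR x.2⟩ * g⁻¹ ∈ ι.range) (x : R) :
    ι ⟨conjPull ι hι g R hR h x, conjPull_mem ι hι g R hR h x⟩ = g * ι ⟨x, hR x.2⟩ * g⁻¹ :=
  MonoidHom.apply_ofInjective_symm hι ⟨g * ι ⟨x, hR x.2⟩ * g⁻¹, h x⟩

theorem conjPull_hom {G : Type*} [Group G] (ι : S →* G) (hι : Function.Injective ι) (g : G)
    (R : Subgroup Ω) (hR : R ≤ S) (h : ∀ x : R, g * ι ⟨x, hR x.2⟩ * g⁻¹ ∈ ι.range) :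
    conjPull ι hι g R hR h ∈ (realSys ι hι).Hom R :=
  ⟨hR, conjPull_mem ι hι g R hR h, g, conjPull_spec ι hι g R hR h⟩

/-- If `S` is normal in every saturated fusion system over `S`, and `S ≅ M` embeds in a finite group
`G` as a Sylow `p`-subgroup, then elements of `M` whose images are conjugate in `G` are conjugate
under `Aut(M)`. -/
theorem exists_aut_of_all_normal [Finite S] {p : ℕ} [Fact p.Prime]
    (hnormal : ∀ F : FusionSystem S, F.IsSaturated p → F.IsNormal S)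
    {M : Type*} [Group M] (e : S ≃* M) {G : Type*} [Group G] [Finite G] (j : M →* G)
    (hj : Function.Injective j) (T : Sylow p G) (hT : (T : Subgroup G) = j.range) (u₀ v₀ : M) (g : G)
    (hg : g * j u₀ * g⁻¹ = j v₀) : ∃ σ : MulAut M, σ u₀ = v₀ := by
  obtain ⟨ι, hιdef⟩ : ∃ ι : S →* G, ∀ s : S, ι s = j (e s) := ⟨j.comp e.toMonoidHom, fun s => rfl⟩
  have hι : Function.Injective ι := by
    intro a b hab
    rw [hιdef, hιdef] at hab
    exact e.injective (hj hab)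
  have hrange : ι.range = j.range := by
    ext y
    constructor
    · rintro ⟨s, rfl⟩
      exact ⟨e s, (hιdef s).symm⟩
    · rintro ⟨m, rfl⟩
      exact ⟨e.symm m, by rw [hιdef, MulEquiv.apply_symm_apply]⟩
  have hsat : (realSys ι hι).IsSaturated p :=
    Helper85.saturated_of_realized (realSys ι hι) ι (realSys_realized ι hι) T (hT.trans hrange.symm)
  have hN := hnormal _ hsat
  obtain ⟨u, hu⟩ : ∃ u : S, u = e.symm u₀ := ⟨_, rfl⟩
  obtain ⟨v, hv⟩ : ∃ v : S, v = e.symm v₀ := ⟨_, rfl⟩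
  have hιu : ι u = j u₀ := by rw [hιdef, hu, MulEquiv.apply_symm_apply]
  have hιv : ι v = j v₀ := by rw [hιdef, hv, MulEquiv.apply_symm_apply]
  have hR : Subgroup.zpowers (u : Ω) ≤ S := by
    rw [Subgroup.zpowers_le]
    exact u.2
  have h : ∀ x : Subgroup.zpowers (u : Ω), g * ι ⟨x, hR x.2⟩ * g⁻¹ ∈ ι.range := by
    intro x
    obtain ⟨k, hk⟩ := Subgroup.mem_zpowers_iff.mp x.2
    have h1 : (⟨x, hR x.2⟩ : S) = u ^ k := Subtype.ext (by rw [Subgroup.coe_zpow]; exact hk.symm)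
    rw [h1, map_zpow, hιu]
    refine ⟨v ^ k, ?_⟩
    rw [map_zpow, hιv, ← hg]
    exact (map_zpow (MulAut.conj g) (j u₀) k).symm
  have hφ := conjPull_hom ι hι g _ hR h
  obtain ⟨σ, -, hσ⟩ := Helper87.exists_aut_of_isNormal (realSys ι hι) hN hR hφ
  have hσu : σ u = v := by
    have h1 := hσ ⟨(u : Ω), Subgroup.mem_zpowers _⟩
    have h2 := conjPull_spec ι hι g _ hR h ⟨(u : Ω), Subgroup.mem_zpowers _⟩
    have h3 : (⟨((⟨(u : Ω), Subgroup.mem_zpowers _⟩ : Subgroup.zpowers (u : Ω)) : Ω),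
        hR (Subgroup.mem_zpowers _)⟩ : S) = u := Subtype.ext rfl
    rw [h3, hιu, hg, ← hιv] at h2
    have h4 := hι h2
    have h5 : (⟨((⟨(u : Ω), Subgroup.mem_zpowers _⟩ : Subgroup.zpowers (u : Ω)) : Ω),
        hR (Subgroup.mem_zpowers _)⟩ : S) = u := Subtype.ext rfl
    rw [h5] at h1
    apply Subtype.ext
    rw [h1]
    exact congrArg Subtype.val h4
  refine ⟨MulAut.congr e σ, ?_⟩
  show e (σ (e.symm u₀)) = v₀
  rw [← hu, hσu, hv, MulEquiv.apply_symm_apply]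

end Real

end Cfsg.Agent.Helper31
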