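import Cfsg.Agent.Helper63.N14Defs

set_option autoImplicit false

namespace Cfsg.Agent.Helper31.N14

open Cfsg.Agent.Helper63.N14

/-- A1. A minimal normal subgroup of order `p` or `p ^ 2` is elementary abelian. -/
theorem elemAb {S : Type*} [Group S] [Finite S] (p : ℕ) (hp : p.Prime) (A : Subgroup S)
    (hAN : A.Normal) (hmin : ∀ N : Subgroup S, N.Normal → N ≤ A → N = ⊥ ∨ N = A)
    (hcard : Nat.card A = p ∨ Nat.card A = p ^ 2) :
    (∀ a ∈ A, ∀ b ∈ A, a * b = b * a) ∧ ∀ a ∈ A, a ^ p = 1 := by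
  have : Fact p.Prime := ⟨hp⟩
  have hcommA : ∀ a b : A, a * b = b * a := by
    rcases hcard with h | h
    · have : IsCyclic A := isCyclic_of_prime_card h
      exact fun a b => (inferInstance : IsMulCommutative A).is_comm.comm a b
    · exact fun a b => (IsPGroup.isMulCommutative_of_card_eq_prime_sq h).is_comm.comm a b
  have hcomm : ∀ a ∈ A, ∀ b ∈ A, a * b = b * a := by
    intro a ha b hb
    have := hcommA ⟨a, ha⟩ ⟨b, hb⟩
    exact congrArg Subtype.val this
  refine ⟨hcomm, ?_⟩
  let N : Subgroup S :=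
    { carrier := {a | a ∈ A ∧ a ^ p = 1}
      mul_mem' := by
        rintro x y ⟨hx, hx'⟩ ⟨hy, hy'⟩
        refine ⟨A.mul_mem hx hy, ?_⟩
        have hc : Commute x y := hcomm x hx y hy
        rw [hc.mul_pow, hx', hy', one_mul]
      one_mem' := ⟨A.one_mem, one_pow p⟩
      inv_mem' := by
        rintro x ⟨hx, hx'⟩
        exact ⟨A.inv_mem hx, by rw [inv_pow, hx', inv_one]⟩ }
  have hNN : N.Normal := by
    refine ⟨?_⟩
    rintro n ⟨hn, hn'⟩ g
    exact ⟨hAN.conj_mem n hn g, by rw [conj_pow, hn', mul_one, mul_inv_cancel]⟩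
  have hNA : N ≤ A := fun x hx => hx.1
  have hdvd : p ∣ Nat.card A := by
    rcases hcard with h | h
    · rw [h]
    · rw [h]; exact dvd_pow_self p (by norm_num)
  obtain ⟨x, hx⟩ := exists_prime_orderOf_dvd_card' (G := A) p hdvd
  have hxN : (x : S) ∈ N := by
    refine ⟨x.2, ?_⟩
    have h1 : x ^ p = 1 := by rw [← hx]; exact pow_orderOf_eq_one x
    have h2 := congrArg Subtype.val h1
    simpa using h2
  have hx1 : (x : S) ≠ 1 := by
    intro h1
    have h2 : x = 1 := Subtype.ext h1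
    rw [h2, orderOf_one] at hx
    exact hp.one_lt.ne hx
  rcases hmin N hNN hNA with hbot | hA
  · exfalso
    rw [hbot] at hxN
    exact hx1 (Subgroup.mem_bot.mp hxN)
  · intro a ha
    have : a ∈ N := by rw [hA]; exact ha
    exact this.2

end Cfsg.Agent.Helper31.N14
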