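import Cfsg.Agent.Helper63.N14Defs

set_option autoImplicit false

namespace Cfsg.Agent.Helper31.N14

open Cfsg.Agent.Helper63.N14

/-- A2. A faithful normal subgroup has no fixed vectors in an irreducible module. -/
theorem fixA_eq_zero {S : Type*} [Group S] {E : Type*} [AddCommGroup E] [Module (ZMod 2) E]
    (ρ : Representation (ZMod 2) S E) (A : Subgroup S) (hAN : A.Normal) (hA : A ≠ ⊥)
    (hirr : ∀ N : Submodule (ZMod 2) E, (∀ s : S, ∀ m ∈ N, ρ s m ∈ N) → N = ⊥ ∨ N = ⊤)
    (hfaith : ∀ x ∈ A, ρ x = 1 → x = 1) :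
    ∀ v : E, (∀ a ∈ A, ρ a v = v) → v = 0 := by
  intro v hv
  let N : Submodule (ZMod 2) E :=
    { carrier := {v | ∀ a ∈ A, ρ a v = v}
      add_mem' := by
        intro x y hx hy a ha
        rw [map_add, hx a ha, hy a ha]
      zero_mem' := by
        intro a ha
        rw [map_zero]
      smul_mem' := by
        intro c x hx a ha
        rw [map_smul, hx a ha] }
  have hNinv : ∀ s : S, ∀ m ∈ N, ρ s m ∈ N := by
    intro s m hm a ha
    have h1 : s⁻¹ * a * s ∈ A := by
      have := hAN.conj_mem a ha s⁻¹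
      simpa using this
    have h2 : ρ (s⁻¹ * a * s) m = m := hm _ h1
    have h3 : ρ a (ρ s m) = ρ (a * s) m := by
      rw [map_mul]; rfl
    rw [h3]
    have h4 : a * s = s * (s⁻¹ * a * s) := by group
    rw [h4, map_mul, Module.End.mul_apply, h2]
  rcases hirr N hNinv with hbot | htop
  · have hvN : v ∈ N := hv
    rw [hbot] at hvN
    exact (Submodule.mem_bot _).mp hvN
  · exfalso
    apply hA
    rw [Subgroup.eq_bot_iff_forall]
    intro a ha
    apply hfaith a ha
    ext m
    have hm : m ∈ N := by rw [htop]; trivial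
    exact hm a ha

end Cfsg.Agent.Helper31.N14
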