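import Cfsg.Agent.Helper63.N14Defs

set_option autoImplicit false

namespace Cfsg.Agent.Helper31.N14

open Cfsg.Agent.Helper63.N14

/-- B2. Transitivity on the nonzero projections, from irreducibility. -/
theorem trans_of_irr {S : Type*} [Group S] {E : Type*} [AddCommGroup E] [Module (ZMod 2) E]
    (ρ : Representation (ZMod 2) S E) {ι : Type*} (act : S → ι → ι)
    (hact1 : ∀ i, act 1 i = i) (hactmul : ∀ s t i, act (s * t) i = act s (act t i))
    (e : ι → Module.End (ZMod 2) E) (horth : ∀ i j, i ≠ j → e i * e j = 0)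
    (hequiv : ∀ s i, ρ s * e i = e (act s i) * ρ s)
    (hirr : ∀ N : Submodule (ZMod 2) E, (∀ s : S, ∀ m ∈ N, ρ s m ∈ N) → N = ⊥ ∨ N = ⊤)
    (i j : ι) (hi : e i ≠ 0) (hj : e j ≠ 0) : ∃ s : S, act s i = j := by
  by_contra hno
  have hno' : ∀ s : S, j ≠ act s i := fun s h => hno ⟨s, h.symm⟩
  let N : Submodule (ZMod 2) E := Submodule.span (ZMod 2) {x | ∃ (s : S) (w : E), e (act s i) w = x}
  have hNinv : ∀ t : S, ∀ m ∈ N, ρ t m ∈ N := by
    intro t
    have hle : N ≤ Submodule.comap (ρ t) N := by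
      apply Submodule.span_le.mpr
      rintro x ⟨s, w, rfl⟩
      show ρ t (e (act s i) w) ∈ N
      have h1 : ρ t (e (act s i) w) = (ρ t * e (act s i)) w := rfl
      rw [h1, hequiv, ← hactmul]
      exact Submodule.subset_span ⟨t * s, ρ t w, rfl⟩
    exact fun m hm => hle hm
  have hker : N ≤ LinearMap.ker (e j) := by
    apply Submodule.span_le.mpr
    rintro x ⟨s, w, rfl⟩
    show e (act s i) w ∈ LinearMap.ker (e j)
    rw [LinearMap.mem_ker]
    have h1 : e j (e (act s i) w) = (e j * e (act s i)) w := rfl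
    rw [h1, horth j (act s i) (hno' s)]
    rfl
  rcases hirr N hNinv with hbot | htop
  · apply hi
    ext w
    have hw : e i w ∈ N := Submodule.subset_span ⟨1, w, by rw [hact1]⟩
    rw [hbot] at hw
    simpa using hw
  · apply hj
    ext w
    have hw : w ∈ N := by rw [htop]; trivial
    have := hker hw
    rw [LinearMap.mem_ker] at this
    simpa using this

end Cfsg.Agent.Helper31.N14
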