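import Cfsg.Agent.Helper63.N14Defs

set_option autoImplicit false

namespace Cfsg.Agent.Helper31.N14

open Cfsg.Agent.Helper63.N14

/-- C1. Lifting a vector of the `i`-th summand fixed by the stabilizer of `i` in `P` to a
`P`-fixed vector (sum over the cosets of the stabilizer). -/
theorem lift_fixed {S : Type*} [Group S] [Finite S] {E : Type*} [AddCommGroup E]
    [Module (ZMod 2) E] (ρ : Representation (ZMod 2) S E) {ι : Type*} (act : S → ι → ι)
    (hact1 : ∀ i, act 1 i = i) (hactmul : ∀ s t i, act (s * t) i = act s (act t i))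
    (e : ι → Module.End (ZMod 2) E) (horth : ∀ i j, i ≠ j → e i * e j = 0)
    (hequiv : ∀ s i, ρ s * e i = e (act s i) * ρ s)
    (P : Subgroup S) (i : ι) (w : E) (hw : e i w = w)
    (hfix : ∀ t ∈ P, act t i = i → ρ t w = w) :
    ∃ v : E, (∀ s ∈ P, ρ s v = v) ∧ e i v = w ∧ ∀ j, e j v ≠ 0 → ∃ s ∈ P, act s i = j := by
  classical
  have : Fintype P := Fintype.ofFinite P
  let O : Finset ι := Finset.univ.image (fun s : P => act (s : S) i)
  have hO : ∀ j, j ∈ O ↔ ∃ s ∈ P, act s i = j := by
    intro j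
    simp only [O, Finset.mem_image, Finset.mem_univ, true_and]
    constructor
    · rintro ⟨s, hs⟩
      exact ⟨s.1, s.2, hs⟩
    · rintro ⟨s, hs, hsj⟩
      exact ⟨⟨s, hs⟩, hsj⟩
  let f : ι → E := fun j => if h : ∃ s ∈ P, act s i = j then ρ (Classical.choose h) w else 0
  have hf : ∀ s ∈ P, f (act s i) = ρ s w := by
    intro s hs
    have h : ∃ s' ∈ P, act s' i = act s i := ⟨s, hs, rfl⟩
    have hfj : f (act s i) = ρ (Classical.choose h) w := dif_pos h
    obtain ⟨hs'P, hs'⟩ := Classical.choose_spec h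
    rw [hfj]
    set s' := Classical.choose h
    have h1 : act (s⁻¹ * s') i = i := by
      rw [hactmul, hs', ← hactmul, inv_mul_cancel, hact1]
    have h2 : ρ (s⁻¹ * s') w = w := hfix _ (P.mul_mem (P.inv_mem hs) hs'P) h1
    have h3 : s' = s * (s⁻¹ * s') := by group
    rw [h3, map_mul, Module.End.mul_apply, h2]
  have hfe : ∀ j ∈ O, f j = e j (f j) := by
    intro j hj
    obtain ⟨s, hs, rfl⟩ := (hO j).mp hj
    rw [hf s hs]
    have h1 : e (act s i) (ρ s w) = (e (act s i) * ρ s) w := rfl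
    rw [h1, ← hequiv]
    show ρ s w = ρ s (e i w)
    rw [hw]
  have hkill : ∀ j' j, j ∈ O → j' ≠ j → e j' (f j) = 0 := by
    intro j' j hj hne
    rw [hfe j hj]
    have h1 : e j' (e j (f j)) = (e j' * e j) (f j) := rfl
    rw [h1, horth j' j hne]
    rfl
  have hiO : i ∈ O := (hO i).mpr ⟨1, P.one_mem, hact1 i⟩
  have hfi : f i = w := by
    have := hf 1 P.one_mem
    rw [hact1, map_one] at this
    exact this
  refine ⟨∑ j ∈ O, f j, ?_, ?_, ?_⟩
  · intro t ht
    rw [map_sum]
    apply Finset.sum_nbij' (fun j => act t j) (fun j => act t⁻¹ j)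
    · intro j hj
      obtain ⟨s, hs, rfl⟩ := (hO j).mp hj
      exact (hO _).mpr ⟨t * s, P.mul_mem ht hs, hactmul t s i⟩
    · intro j hj
      obtain ⟨s, hs, rfl⟩ := (hO j).mp hj
      exact (hO _).mpr ⟨t⁻¹ * s, P.mul_mem (P.inv_mem ht) hs, hactmul t⁻¹ s i⟩
    · intro j _
      show act t⁻¹ (act t j) = j
      rw [← hactmul, inv_mul_cancel, hact1]
    · intro j _
      show act t (act t⁻¹ j) = j
      rw [← hactmul, mul_inv_cancel, hact1]
    · intro j hj
      obtain ⟨s, hs, rfl⟩ := (hO j).mp hj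
      show ρ t (f (act s i)) = f (act t (act s i))
      rw [← hactmul, hf s hs, hf (t * s) (P.mul_mem ht hs), map_mul]
      rfl
  · rw [map_sum, Finset.sum_eq_single i]
    · rw [hfi, hw]
    · intro j hj hne
      exact hkill i j hj (Ne.symm hne)
    · intro h
      exact absurd hiO h
  · intro j hj
    by_contra hno
    apply hj
    rw [map_sum]
    apply Finset.sum_eq_zero
    intro j' hj'
    apply hkill j j' hj'
    rintro rfl
    exact hno ((hO j).mp hj')

end Cfsg.Agent.Helper31.N14
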