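import Mathlib
import Cfsg.Agent.Helper21.N2RDefs

set_option autoImplicit false

/-! helper31: CALL S2249 (helper21), piece X. -/

namespace Cfsg.Agent.Helper31.N2RX

open Matrix Cfsg.Agent.Helper21.N2R

/-- X -/
theorem exists_four_mul_pow_four {F : Type*} [Field F] [Fintype F]
    (hq : Fintype.card F % 4 = 3) : ∃ x : F, 4 * x ^ 4 = 1 := by
  classical
  have hneg : ¬ IsSquare (-1 : F) := by
    rw [FiniteField.isSquare_neg_one_iff]
    intro h
    exact h hq
  have hchar : ringChar F ≠ 2 := by
    rw [Ne, FiniteField.even_card_iff_char_two]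
    omega
  have h2 : (2 : F) ≠ 0 := Ring.two_ne_zero hchar
  by_cases hs : IsSquare (2 : F)
  · obtain ⟨y, hy⟩ := hs
    have hy0 : y ≠ 0 := by
      rintro rfl
      rw [mul_zero] at hy
      exact h2 hy
    refine ⟨y⁻¹, ?_⟩
    have h4 : (4 : F) = (y * y) * (y * y) := by
      rw [← hy]
      norm_num
    rw [h4]
    field_simp
  · have hs2 : IsSquare (-2 : F) := by
      have h1 : quadraticChar F (-1) = -1 := quadraticChar_neg_one_iff_not_isSquare.2 hneg
      have h2' : quadraticChar F 2 = -1 := quadraticChar_neg_one_iff_not_isSquare.2 hs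
      have h3 : quadraticChar F (-2) = 1 := by
        have h : (-2 : F) = (-1) * 2 := by ring
        rw [h, map_mul, h1, h2']
        norm_num
      exact (quadraticChar_one_iff_isSquare (neg_ne_zero.2 h2)).1 h3
    obtain ⟨y, hy⟩ := hs2
    have hy0 : y ≠ 0 := by
      rintro rfl
      rw [mul_zero] at hy
      exact h2 (neg_eq_zero.1 hy)
    refine ⟨y⁻¹, ?_⟩
    have h4 : (4 : F) = (y * y) * (y * y) := by
      rw [← hy]
      norm_num
    rw [h4]
    field_simp

end Cfsg.Agent.Helper31.N2RX
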