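import Mathlib
import Cfsg.Agent.Helper60.NCDefs

/-!
# helper31: CALL S4135 piece GILA (`gil_a`, verbatim).
-/

set_option autoImplicit false
open Subgroup

namespace Cfsg.Agent.Helper31.NCGILA
open Cfsg.Agent.Helper60.NC

/-- partial products of the conjugates `u^(-i) b u^i` -/
def gilP {G : Type*} [Group G] (u b : G) : ℕ → G
  | 0 => 1
  | (j + 1) => gilP u b j * ((u ^ j)⁻¹ * b * u ^ j)

theorem gilP_shift {G : Type*} [Group G] (u b : G) (j : ℕ) :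
    b * (u⁻¹ * gilP u b j * u) = gilP u b j * ((u ^ j)⁻¹ * b * u ^ j) := by
  induction j with
  | zero => simp [gilP]
  | succ j ih =>
    have e : u⁻¹ * (gilP u b j * ((u ^ j)⁻¹ * b * u ^ j)) * u =
        (u⁻¹ * gilP u b j * u) * ((u ^ (j + 1))⁻¹ * b * u ^ (j + 1)) := by
      rw [pow_succ]; group
    show b * (u⁻¹ * (gilP u b j * ((u ^ j)⁻¹ * b * u ^ j)) * u) =
      gilP u b j * ((u ^ j)⁻¹ * b * u ^ j) * ((u ^ (j + 1))⁻¹ * b * u ^ (j + 1))
    rw [e, ← mul_assoc, ih]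

variable {G : Type*} [Group G] [Finite G] {r : ℕ} [Fact r.Prime] {N : Subgroup G} {m : ℕ}

/-- GILA -/
theorem gil_a (hc : Ctx G r N m) {v u : G} (hv : v ∈ N) (hgood : Good N v)
    (hu : ∃ k : ℕ, u ^ r ^ k = 1) (hnorm : u ∈ normalizer (centralizer ({v} : Set G) : Set G)) :
    ∀ c ∈ centralizer ({v} : Set G), ∃ k ∈ N, k ∈ centralizer ({v} : Set G) ∧
      ∃ d ∈ centralizer ({v} : Set G), d ∈ centralizer ({u} : Set G) ∧ c = k * d := by
  intro c hcC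
  have hrp : r.Prime := Fact.out
  have hnN := hc.nN
  have huN : u ∈ N := hc.hr u hu
  obtain ⟨a, b, ha, hb, hab, har, hbr⟩ := split_r r c
  have hzle : zpowers c ≤ centralizer ({v} : Set G) := zpowers_le.2 hcC
  have haC := hzle ha
  have hbC := hzle hb
  have haN : a ∈ N := hc.hr a har
  have hfC : ∀ i : ℕ, (u ^ i)⁻¹ * b * u ^ i ∈ centralizer ({v} : Set G) := by
    intro i
    have h1 : (u ^ i)⁻¹ ∈ normalizer (centralizer ({v} : Set G) : Set G) :=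
      inv_mem (pow_mem hnorm i)
    have h2 := (mem_normalizer_iff.1 h1 b).1 hbC
    rw [inv_inv] at h2
    exact h2
  have hkN : ∀ i : ℕ, b⁻¹ * ((u ^ i)⁻¹ * b * u ^ i) ∈ N := by
    intro i
    have h1 : b⁻¹ * (u ^ i)⁻¹ * b⁻¹⁻¹ ∈ N := hnN.conj_mem _ (inv_mem (pow_mem huN i)) b⁻¹
    have h2 := mul_mem h1 (pow_mem huN i)
    have e : b⁻¹ * (u ^ i)⁻¹ * b⁻¹⁻¹ * u ^ i = b⁻¹ * ((u ^ i)⁻¹ * b * u ^ i) := by group
    rwa [e] at h2
  have hkC : ∀ i : ℕ, b⁻¹ * ((u ^ i)⁻¹ * b * u ^ i) ∈ centralizer ({v} : Set G) :=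
    fun i => mul_mem (inv_mem hbC) (hfC i)
  have hB : ∀ j : ℕ, ∃ κ ∈ N, κ ∈ centralizer ({v} : Set G) ∧ gilP u b j = b ^ j * κ := by
    intro j
    induction j with
    | zero => exact ⟨1, one_mem _, one_mem _, by simp [gilP]⟩
    | succ j ih =>
      obtain ⟨κ, hκN, hκC, hκ⟩ := ih
      refine ⟨κ * (b⁻¹ * ((u ^ j)⁻¹ * b * u ^ j)), mul_mem hκN (hkN j), mul_mem hκC (hkC j), ?_⟩
      have h1 : κ * b = b * κ := hgood κ hκN hκC b hbC
      show gilP u b j * ((u ^ j)⁻¹ * b * u ^ j) = _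
      rw [hκ, pow_succ]
      calc b ^ j * κ * ((u ^ j)⁻¹ * b * u ^ j)
          = b ^ j * (κ * b) * (b⁻¹ * ((u ^ j)⁻¹ * b * u ^ j)) := by group
        _ = b ^ j * b * (κ * (b⁻¹ * ((u ^ j)⁻¹ * b * u ^ j))) := by rw [h1]; group
  obtain ⟨κ, hκN, hκC, hκ⟩ := hB (orderOf u)
  have hshift := gilP_shift u b (orderOf u)
  obtain ⟨n, hn⟩ : ∃ n, n = gilP u b (orderOf u) := ⟨_, rfl⟩
  rw [← hn] at hκ hshift
  rw [pow_orderOf_eq_one, inv_one, one_mul, mul_one] at hshift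
  have hnC : n ∈ centralizer ({v} : Set G) := by
    rw [hκ]; exact mul_mem (pow_mem hbC _) hκC
  have hκb : κ * b = b * κ := hgood κ hκN hκC b hbC
  have hκn : κ * n = n * κ := hgood κ hκN hκC n hnC
  have hnb : n * b = b * n := by
    rw [hκ, mul_assoc, hκb, ← mul_assoc, ← pow_succ, ← mul_assoc, ← pow_succ']
  have hnu : u⁻¹ * n * u = n := by
    have h1 : b * (u⁻¹ * n * u) = b * n := by rw [hshift, hnb]
    exact mul_left_cancel h1
  have hnCu : n ∈ centralizer ({u} : Set G) := by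
    rw [mem_centralizer_singleton_iff]
    calc n * u = u * (u⁻¹ * n * u) := by group
      _ = u * n := by rw [hnu]
  have hcop : (orderOf u).Coprime (orderOf b) := orderOf_coprime_of_pow hrp hu hbr
  obtain ⟨s, hs⟩ := exists_pow_eq_self_of_coprime hcop
  have hcomm : Commute κ⁻¹ n := (Commute.inv_left (show Commute κ n from hκn))
  have hbo : b ^ orderOf u = κ⁻¹ * n := by
    rw [hcomm.eq, hκ]; group
  have hb' : b = κ⁻¹ ^ s * n ^ s := by
    rw [← hcomm.mul_pow, ← hbo, hs]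
  refine ⟨a * κ⁻¹ ^ s, mul_mem haN (pow_mem (inv_mem hκN) s),
    mul_mem haC (pow_mem (inv_mem hκC) s), n ^ s, pow_mem hnC s, pow_mem hnCu s, ?_⟩
  rw [mul_assoc, ← hb', hab]

end Cfsg.Agent.Helper31.NCGILA
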