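import Mathlib
import Cfsg.Agent.Helper60.NCDefs

/-!
# helper31: CALL S4135 piece GILB (`gil_b`, verbatim).
-/

set_option autoImplicit false
open Subgroup

namespace Cfsg.Agent.Helper31.NCGILB
open Cfsg.Agent.Helper60.NC

variable {G : Type*} [Group G] [Finite G] {r : ℕ} [Fact r.Prime] {N : Subgroup G} {m : ℕ}

/-- GILB -/
theorem gil_b (hc : Ctx G r N m) {v u : G} (hv : v ∈ N) (hvZ : v ∉ center G) (hu : u ∈ N)
    (huZ : u ∉ center G)
    (hdec : ∀ c ∈ centralizer ({v} : Set G), ∃ k ∈ N, k ∈ centralizer ({v} : Set G) ∧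
      ∃ d ∈ centralizer ({v} : Set G), d ∈ centralizer ({u} : Set G) ∧ c = k * d) :
    Nat.card ↥(centralizer ({u} : Set G) ⊓ N) ≤ Nat.card ↥(centralizer ({v} : Set G) ⊓ N) := by
  have := hc.nN
  have hcard : Nat.card (centralizer ({v} : Set G)) = Nat.card (centralizer ({u} : Set G)) :=
    hc.card_eq hv hu hvZ huZ
  have hle : centralizer ({v} : Set G) ⊔ N ≤ centralizer ({u} : Set G) ⊔ N := by
    apply sup_le _ le_sup_right
    intro c hcC
    obtain ⟨k, hkN, _, d, _, hdu, rfl⟩ := hdec c hcC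
    exact mul_mem (mem_sup_right hkN) (mem_sup_left hdu)
  have h1 : N.relIndex (centralizer ({v} : Set G) ⊔ N) = N.relIndex (centralizer ({v} : Set G)) :=
    relIndex_sup_right _ _
  have h2 : N.relIndex (centralizer ({u} : Set G) ⊔ N) = N.relIndex (centralizer ({u} : Set G)) :=
    relIndex_sup_right _ _
  have h3 : N.relIndex (centralizer ({v} : Set G) ⊔ N) *
      (centralizer ({v} : Set G) ⊔ N).relIndex (centralizer ({u} : Set G) ⊔ N) =
      N.relIndex (centralizer ({u} : Set G) ⊔ N) :=
    relIndex_mul_relIndex _ _ _ le_sup_right hle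
  have h4 : ∀ C : Subgroup G, Nat.card ↥(C ⊓ N) * N.relIndex C = Nat.card C := by
    intro C
    rw [← inf_relIndex_left (H := C) (K := N)]
    have h := relIndex_mul_relIndex ⊥ (C ⊓ N) C bot_le inf_le_left
    rw [relIndex_bot_left, relIndex_bot_left] at h
    exact h
  have hv4 := h4 (centralizer ({v} : Set G))
  have hu4 := h4 (centralizer ({u} : Set G))
  rw [h1, h2] at h3
  have hCu : 0 < Nat.card (centralizer ({u} : Set G)) := Nat.card_pos
  have hiu : N.relIndex (centralizer ({u} : Set G)) ≠ 0 := by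
    intro h0
    rw [h0, mul_zero] at hu4
    omega
  have hiv : 0 < N.relIndex (centralizer ({v} : Set G)) := by
    rcases Nat.eq_zero_or_pos (N.relIndex (centralizer ({v} : Set G))) with h0 | h0
    · rw [h0, zero_mul] at h3
      exact absurd h3.symm hiu
    · exact h0
  have hivu : N.relIndex (centralizer ({v} : Set G)) ≤ N.relIndex (centralizer ({u} : Set G)) :=
    Nat.le_of_dvd (Nat.pos_of_ne_zero hiu) (Dvd.intro _ h3)
  have h5 : Nat.card ↥(centralizer ({u} : Set G) ⊓ N) * N.relIndex (centralizer ({v} : Set G)) ≤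
      Nat.card ↥(centralizer ({v} : Set G) ⊓ N) * N.relIndex (centralizer ({v} : Set G)) := by
    calc Nat.card ↥(centralizer ({u} : Set G) ⊓ N) * N.relIndex (centralizer ({v} : Set G))
        ≤ Nat.card ↥(centralizer ({u} : Set G) ⊓ N) * N.relIndex (centralizer ({u} : Set G)) :=
          Nat.mul_le_mul_left _ hivu
      _ = Nat.card ↥(centralizer ({v} : Set G) ⊓ N) * N.relIndex (centralizer ({v} : Set G)) := by
          rw [hu4, hv4, hcard]
  exact Nat.le_of_mul_le_mul_right h5 hiv

end Cfsg.Agent.Helper31.NCGILB
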