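import Mathlib
import Cfsg.Agent.Helper60.NCDefs

/-!
# helper31: CALL S4135 piece RSYL (`rsyl`, verbatim).
-/

set_option autoImplicit false
open Subgroup

namespace Cfsg.Agent.Helper31.NCRSYL
open Cfsg.Agent.Helper60.NC

variable {G : Type*} [Group G] [Finite G] {r : ℕ} [Fact r.Prime] {N : Subgroup G} {m : ℕ}

/-- RSYL -/
theorem rsyl (hc : Ctx G r N m) {y w : G} (hM : Mix G r N y w) (hrm : r ∣ m) :
    ∃ R' : Sylow r G, w ∈ (R' : Subgroup G) ∧
      Nat.card ↥((R' : Subgroup G) ⊓ centralizer ({y} : Set G)) =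
        r ^ (Nat.card (centralizer ({y} : Set G))).factorization r ∧
      ¬ (R' : Subgroup G) ≤ centralizer ({y} : Set G) := by
  classical
  have hrp : r.Prime := Fact.out
  have hwC : w ∈ centralizer ({y} : Set G) := mem_centralizer_singleton_iff.2 hM.comm.eq.symm
  have hz : IsPGroup r (zpowers w) := by
    obtain ⟨k, hk⟩ := hM.wr
    intro ⟨x, hx⟩
    refine ⟨k, ?_⟩
    obtain ⟨i, rfl⟩ := mem_zpowers_iff.1 hx
    apply Subtype.ext
    show (w ^ i) ^ r ^ k = 1
    rw [← zpow_natCast, ← zpow_mul, mul_comm, zpow_mul, zpow_natCast, hk, one_zpow]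
  have hT : IsPGroup r ((zpowers w).subgroupOf (centralizer ({y} : Set G))) := hz.comap_subtype
  obtain ⟨P, hP⟩ := hT.exists_le_sylow
  have hPm : IsPGroup r ((P : Subgroup (centralizer ({y} : Set G))).map
      (centralizer ({y} : Set G)).subtype) := P.isPGroup'.map _
  obtain ⟨R', hR'⟩ := hPm.exists_le_sylow
  refine ⟨R', ?_, ?_, ?_⟩
  · apply hR'
    refine ⟨⟨w, hwC⟩, hP ?_, rfl⟩
    rw [mem_subgroupOf]
    exact mem_zpowers w
  · have hQ : IsPGroup r (((R' : Subgroup G) ⊓ centralizer ({y} : Set G)).subgroupOf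
        (centralizer ({y} : Set G))) := (R'.isPGroup'.to_le inf_le_left).comap_subtype
    have hPQ : (P : Subgroup (centralizer ({y} : Set G))) ≤
        ((R' : Subgroup G) ⊓ centralizer ({y} : Set G)).subgroupOf (centralizer ({y} : Set G)) := by
      intro x hx
      rw [mem_subgroupOf]
      exact ⟨hR' ⟨x, hx, rfl⟩, x.2⟩
    have hEq := P.is_maximal' hQ hPQ
    have hcardP := P.card_eq_multiplicity
    have h1 : Nat.card ↥((R' : Subgroup G) ⊓ centralizer ({y} : Set G)) =
        Nat.card (((R' : Subgroup G) ⊓ centralizer ({y} : Set G)).subgroupOf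
          (centralizer ({y} : Set G))) :=
      (Nat.card_congr (subgroupOfEquivOfLe inf_le_right).toEquiv).symm
    rw [h1, hEq]
    exact hcardP
  · intro hle
    have h1 := R'.card_eq_multiplicity
    have h2 : Nat.card (R' : Subgroup G) ∣ Nat.card (centralizer ({y} : Set G)) :=
      card_dvd_of_le hle
    have h3 : Nat.card (centralizer ({y} : Set G)) * m = Nat.card G := by
      rw [← hc.index_eq hM.yN hM.yZ]
      exact (centralizer ({y} : Set G)).card_mul_index
    have hC0 : Nat.card (centralizer ({y} : Set G)) ≠ 0 := Nat.card_pos.ne'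
    have hG0 : Nat.card G ≠ 0 := Nat.card_pos.ne'
    have hm0 : m ≠ 0 := by
      intro h0
      rw [h0, mul_zero] at h3
      exact hG0 h3.symm
    have h4 : (Nat.card G).factorization r =
        (Nat.card (centralizer ({y} : Set G))).factorization r + m.factorization r := by
      rw [← h3, Nat.factorization_mul hC0 hm0]
      rfl
    have h5 : 0 < m.factorization r := hrp.factorization_pos_of_dvd hm0 hrm
    have h6 : r ^ ((Nat.card (centralizer ({y} : Set G))).factorization r + 1) ∣
        Nat.card (centralizer ({y} : Set G)) := by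
      refine dvd_trans (pow_dvd_pow r ?_) (h1 ▸ h2)
      omega
    exact Nat.pow_succ_factorization_not_dvd hC0 hrp h6

end Cfsg.Agent.Helper31.NCRSYL
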