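import Mathlib
import Cfsg.Agent.Helper60.NCDefs

/-!
# helper31: CALL S4135 piece S2CASE, core: `s2_case` with the conclusion of INDEXR as a hypothesis.
-/

set_option autoImplicit false
open Subgroup

namespace Cfsg.Agent.Helper31.NCS2CASE
open Cfsg.Agent.Helper60.NC

variable {G : Type*} [Group G] [Finite G] {r : ℕ} [Fact r.Prime] {N : Subgroup G} {m : ℕ}

/-- S2CASE with the conclusion of INDEXR (for this `R'`) as the hypothesis `hidx`. -/
theorem s2_case_of_index (hc : Ctx G r N m) {y w : G} (hM : Mix G r N y w) (R' : Sylow r G)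
    (hw : w ∈ (R' : Subgroup G))
    (hS2 : ¬ (R' : Subgroup G) ≤ normalizer (centralizer ({y} : Set G) : Set G))
    (hidx : ∃ g ∈ (R' : Subgroup G), g ∈ normalizer (centralizer ({y} : Set G) : Set G) ∧
      g ∉ centralizer ({y} : Set G) ∧ g ^ r ∈ center G ∧
      ∀ t ∈ (R' : Subgroup G), t ∈ normalizer (centralizer ({y} : Set G) : Set G) →
        ∃ i < r, ∃ c ∈ centralizer ({y} : Set G), t = c * g ^ i) :
    Nat.card ↥((R' : Subgroup G) ⊓ centralizer ({y} : Set G)) ≤
      r * Nat.card ↥((R' : Subgroup G) ⊓ center G) := by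
  classical
  have hrp : r.Prime := Fact.out
  obtain ⟨g, hgR, hgn, hgC, hgr, hcos⟩ := hidx
  -- the two subgroups
  obtain ⟨RK, hRK⟩ : ∃ RK : Subgroup G, RK = (R' : Subgroup G) ⊓ centralizer ({y} : Set G) :=
    ⟨_, rfl⟩
  obtain ⟨R2, hR2⟩ : ∃ R2 : Subgroup G,
      R2 = (R' : Subgroup G) ⊓ normalizer (centralizer ({y} : Set G) : Set G) := ⟨_, rfl⟩
  have hRK2 : RK ≤ R2 := by
    rw [hRK, hR2]
    exact inf_le_inf_left _ le_normalizer
  -- `|R2| ≤ r |RK|`
  have hR2card : Nat.card R2 ≤ r * Nat.card RK := by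
    have hex : ∀ t : R2, ∃ p : Fin r × RK, (t : G) = (p.2 : G) * g ^ (p.1 : ℕ) := by
      intro t
      have ht2 : (t : G) ∈ (R' : Subgroup G) ⊓ normalizer (centralizer ({y} : Set G) : Set G) := by
        rw [← hR2]; exact t.2
      obtain ⟨i, hi, c, hcC, htc⟩ := hcos t.1 ht2.1 ht2.2
      have hcR : c ∈ (R' : Subgroup G) := by
        have e : c = t.1 * (g ^ i)⁻¹ := by rw [htc]; group
        rw [e]; exact mul_mem ht2.1 (inv_mem (pow_mem hgR i))
      have hcRK : c ∈ RK := by rw [hRK]; exact ⟨hcR, hcC⟩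
      exact ⟨(⟨i, hi⟩, ⟨c, hcRK⟩), htc⟩
    choose f hf using hex
    have hinj : Function.Injective f := by
      intro t1 t2 h12
      apply Subtype.ext
      rw [hf t1, hf t2, h12]
    have h1 := Nat.card_le_card_of_injective f hinj
    rwa [Nat.card_prod, Nat.card_fin] at h1
  -- normaliser growth in `R'`
  have : Group.IsNilpotent (R' : Subgroup G) := R'.isPGroup'.isNilpotent
  have hlt : R2.subgroupOf (R' : Subgroup G) < ⊤ := by
    rw [lt_top_iff_ne_top]
    intro htop
    apply hS2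
    intro x hx
    have h1 : (⟨x, hx⟩ : (R' : Subgroup G)) ∈ R2.subgroupOf (R' : Subgroup G) := by
      rw [htop]; exact mem_top _
    rw [mem_subgroupOf, hR2] at h1
    exact h1.2
  have hgrow := Group.normalizerCondition_of_isNilpotent (G := (R' : Subgroup G)) _ hlt
  obtain ⟨t, htn, htnot⟩ := SetLike.exists_of_lt hgrow
  have htR : (t : G) ∈ (R' : Subgroup G) := t.2
  have htC : (t : G) ∉ normalizer (centralizer ({y} : Set G) : Set G) := by
    intro h1
    apply htnot
    rw [mem_subgroupOf, hR2]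
    exact ⟨htR, h1⟩
  have htconj : ∀ k ∈ R2, (t : G) * k * (t : G)⁻¹ ∈ R2 := by
    intro k hk
    have hkR : k ∈ (R' : Subgroup G) := by rw [hR2] at hk; exact hk.1
    have h1 : (⟨k, hkR⟩ : (R' : Subgroup G)) ∈ R2.subgroupOf (R' : Subgroup G) := by
      rw [mem_subgroupOf]; exact hk
    have h2 := (mem_normalizer_iff.1 htn ⟨k, hkR⟩).1 h1
    rw [mem_subgroupOf] at h2
    exact h2
  -- the conjugate of `RK`
  obtain ⟨RKt, hRKt⟩ : ∃ RKt : Subgroup G, RKt = RK.map (MulAut.conj (t : G)).toMonoidHom :=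
    ⟨_, rfl⟩
  have hRKt_mem : ∀ x, x ∈ RKt ↔ ∃ k ∈ RK, (t : G) * k * (t : G)⁻¹ = x := by
    intro x
    rw [hRKt, mem_map]
    rfl
  have hRKt2 : RKt ≤ R2 := by
    intro x hx
    obtain ⟨k, hk, rfl⟩ := (hRKt_mem x).1 hx
    exact htconj k (hRK2 hk)
  have hRKtcard : Nat.card RKt = Nat.card RK := by
    rw [hRKt]
    exact card_map_of_injective (MulAut.conj (t : G)).injective
  -- elements of `R'` are `r`-elements, hence in `N`
  have hRN : ∀ x ∈ (R' : Subgroup G), x ∈ N := by
    intro x hx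
    obtain ⟨k, hk⟩ := R'.isPGroup' ⟨x, hx⟩
    exact hc.hr x ⟨k, congrArg Subtype.val hk⟩
  -- the intersection is central
  have hD : RK ⊓ RKt ≤ (R' : Subgroup G) ⊓ center G := by
    intro v hv
    have hvRK : v ∈ (R' : Subgroup G) ⊓ centralizer ({y} : Set G) := by rw [← hRK]; exact hv.1
    refine ⟨hvRK.1, ?_⟩
    by_contra hvZ
    obtain ⟨k, hk, hvk⟩ := (hRKt_mem v).1 hv.2
    have hkRK : k ∈ (R' : Subgroup G) ⊓ centralizer ({y} : Set G) := by rw [← hRK]; exact hk
    have hkZ : k ∉ center G := by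
      intro hkz
      apply hvZ
      rw [← hvk]
      have h2 := (inferInstance : (center G).Normal).conj_mem _ hkz (t : G)
      exact h2
    have hCv : centralizer ({v} : Set G) = centralizer ({y} : Set G) :=
      hM.cen hc (hRN v hvRK.1) hvRK.2 hvZ
    have hCk : centralizer ({k} : Set G) = centralizer ({y} : Set G) :=
      hM.cen hc (hRN k hkRK.1) hkRK.2 hkZ
    apply htC
    rw [mem_normalizer_iff]
    intro h
    constructor
    · intro hh
      rw [← hCv]
      rw [← hCk] at hh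
      rw [mem_centralizer_singleton_iff] at hh ⊢
      rw [← hvk]
      calc (t : G) * h * (t : G)⁻¹ * ((t : G) * k * (t : G)⁻¹)
          = (t : G) * (h * k) * (t : G)⁻¹ := by group
        _ = (t : G) * (k * h) * (t : G)⁻¹ := by rw [hh]
        _ = (t : G) * k * (t : G)⁻¹ * ((t : G) * h * (t : G)⁻¹) := by group
    · intro hh
      rw [← hCk]
      rw [← hCv] at hh
      rw [mem_centralizer_singleton_iff] at hh ⊢
      rw [← hvk] at hh
      have h3 : (t : G) * (h * k) * (t : G)⁻¹ = (t : G) * (k * h) * (t : G)⁻¹ := by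
        calc (t : G) * (h * k) * (t : G)⁻¹
            = (t : G) * h * (t : G)⁻¹ * ((t : G) * k * (t : G)⁻¹) := by group
          _ = (t : G) * k * (t : G)⁻¹ * ((t : G) * h * (t : G)⁻¹) := hh
          _ = (t : G) * (k * h) * (t : G)⁻¹ := by group
      exact mul_left_cancel (mul_right_cancel h3)
  have hDcard : Nat.card ↥(RK ⊓ RKt) ≤ Nat.card ↥((R' : Subgroup G) ⊓ center G) :=
    card_le_of_le hD
  -- indices
  have h1 : Nat.card ↥(RK ⊓ RKt) * RKt.relIndex RK = Nat.card RK := by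
    rw [← inf_relIndex_left (H := RK) (K := RKt)]
    have h := relIndex_mul_relIndex ⊥ (RK ⊓ RKt) RK bot_le inf_le_left
    rw [relIndex_bot_left, relIndex_bot_left] at h
    exact h
  have h2 : Nat.card RKt * RKt.relIndex R2 = Nat.card R2 := by
    have h := relIndex_mul_relIndex ⊥ RKt R2 bot_le hRKt2
    rw [relIndex_bot_left, relIndex_bot_left] at h
    exact h
  have hRKpos : 0 < Nat.card RK := Nat.card_pos
  have hR2pos : 0 < Nat.card R2 := Nat.card_pos
  have hi2 : RKt.relIndex R2 ≠ 0 := by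
    intro h0
    rw [h0, mul_zero] at h2
    omega
  have h12 : RKt.relIndex RK ≤ RKt.relIndex R2 := relIndex_le_of_le_right hRK2 hi2
  have hi2r : RKt.relIndex R2 ≤ r := by
    rw [hRKtcard] at h2
    have h3 : Nat.card RK * RKt.relIndex R2 ≤ Nat.card RK * r := by
      rw [h2, mul_comm]; exact hR2card
    exact Nat.le_of_mul_le_mul_left h3 hRKpos
  rw [← hRK]
  calc Nat.card RK = Nat.card ↥(RK ⊓ RKt) * RKt.relIndex RK := h1.symm
    _ ≤ Nat.card ↥(RK ⊓ RKt) * r := Nat.mul_le_mul_left _ (h12.trans hi2r)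
    _ = r * Nat.card ↥(RK ⊓ RKt) := mul_comm _ _
    _ ≤ r * Nat.card ↥((R' : Subgroup G) ⊓ center G) := Nat.mul_le_mul_left _ hDcard

end Cfsg.Agent.Helper31.NCS2CASE
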