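import Mathlib
import Cfsg.Agent.Helper96.OHDefs
import Cfsg.Agent.Helper31.OHOBADDIRcore
import Cfsg.Agent.Helper37.OHOSTD
import Cfsg.Agent.Helper88.OHOBAD
import Cfsg.Agent.Helper70.OHOSUB

/-!
# helper31: CALL S5992 piece OBADDIR for the standard odd form, with the pieces OCDVD, ONDSUBCARD,
OTYPEEVEN (for `quadFormOdd d F`) passed in as hypotheses (`o_bad_dir_of`).
-/

set_option autoImplicit false
set_option linter.unusedSectionVars false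
set_option linter.unusedVariables false

namespace Cfsg.Agent.Helper31.OH5992

open Module Polynomial Cfsg Cfsg.Geo
open Cfsg.Agent.Helper13.TIu Cfsg.Agent.Helper96.OH

variable {ι : Type} [Fintype ι] [DecidableEq ι] {F : Type*} [Field F] (Q : (ι → F) → F)

/-- OBADDIR from OCDVD, ONDSUBCARD, OTYPEEVEN. -/
theorem o_bad_dir_of [Fintype F] (p : ℕ) [Fact p.Prime] [CharP F p] (h2 : (2 : F) ≠ 0) (d m : ℕ)
    (hme : Even m) (hm2 : 2 ≤ m) (hmn : m ≤ 2 * d) (r : ℕ) [Fact r.Prime] (hr2 : 2 < r)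
    (hrp : r ≠ p)
    (hΩ : r ∣ Nat.card {W : Submodule F (Unit ⊕ (Fin d ⊕ Fin d) → F) //
      finrank F W = m ∧ ONd (Cfsg.quadFormOdd d F) W ∧ OPl (Cfsg.quadFormOdd d F) W})
    (i c : ℕ) (hi : i = orderOf ((Fintype.card F : ℕ) : ZMod r))
    (hc : c = if Even i then i else 2 * i)
    (hL : ∀ g : Matrix.GeneralLinearGroup (Unit ⊕ (Fin d ⊕ Fin d)) F,
      g ∈ Cfsg.isometryGroup F (Cfsg.quadFormOdd d F) → orderOf g = r →
      ∃ W : Submodule F (Unit ⊕ (Fin d ⊕ Fin d) → F),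
        (finrank F W = m ∧ ONd (Cfsg.quadFormOdd d F) W ∧ OPl (Cfsg.quadFormOdd d F) W) ∧
        W.map (Matrix.toLin'
          (g : Matrix (Unit ⊕ (Fin d ⊕ Fin d)) (Unit ⊕ (Fin d ⊕ Fin d)) F)) ≤ W)
    (hcdvd : ∀ T : Module.End F (Unit ⊕ (Fin d ⊕ Fin d) → F), OPres (Cfsg.quadFormOdd d F) T →
      T ^ r = 1 → ∀ N : Submodule F (Unit ⊕ (Fin d ⊕ Fin d) → F), N.map T ≤ N →
      ONd (Cfsg.quadFormOdd d F) N →
      c ∣ finrank F N - finrank F (N ⊓ LinearMap.ker (T - 1) :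
        Submodule F (Unit ⊕ (Fin d ⊕ Fin d) → F)))
    (hndsub : ∀ K : Submodule F (Unit ⊕ (Fin d ⊕ Fin d) → F), ONd (Cfsg.quadFormOdd d F) K →
      finrank F K < c → ∀ W₀ : Submodule F (Unit ⊕ (Fin d ⊕ Fin d) → F),
      ((finrank F W₀ = m ∧ ONd (Cfsg.quadFormOdd d F) W₀ ∧ OPl (Cfsg.quadFormOdd d F) W₀) ∧
        W₀ ≤ K) →
      ¬ r ∣ Nat.card {W : Submodule F (Unit ⊕ (Fin d ⊕ Fin d) → F) //
        (finrank F W = m ∧ ONd (Cfsg.quadFormOdd d F) W ∧ OPl (Cfsg.quadFormOdd d F) W) ∧ W ≤ K})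
    (hteven : ∀ T : Module.End F (Unit ⊕ (Fin d ⊕ Fin d) → F), OPres (Cfsg.quadFormOdd d F) T →
      T ^ r = 1 → Even i → ∀ N : Submodule F (Unit ⊕ (Fin d ⊕ Fin d) → F), N.map T ≤ N →
      ONd (Cfsg.quadFormOdd d F) N → N ⊓ LinearMap.ker (T - 1) = ⊥ →
      (OPl (Cfsg.quadFormOdd d F) N ↔ Even (finrank F N / i))) :
    c ≤ m ∧ m % c < (2 * d + 1) % c ∧ (Even i → 0 < m % c ∨ Even (m / i)) := by
  classical
  have hrpr : r.Prime := Fact.out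
  obtain ⟨hrF, hrq⟩ := Cfsg.Agent.Helper13.TIsp.ti_char_facts (F := F) p r hrp
  obtain ⟨hi0, hir⟩ := Cfsg.Agent.Helper51.TI5955.ord_pos r (Fintype.card F) hrq
  rw [← hi] at hi0 hir
  have hQ := Cfsg.Agent.Helper37.OH5992.o_std_nondeg (F := F) h2 d
  have hcard : Fintype.card (Unit ⊕ (Fin d ⊕ Fin d)) = 2 * d + 1 := by
    simp
    ring
  refine o_bad_dir_gen (Cfsg.quadFormOdd d F) hQ (2 * d + 1) m r i c hrF hi0 hc hcard ⟨d, rfl⟩
    hme hm2 (by omega) hΩ ?_ hcdvd hndsub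
    (fun K hK e hev he0 heK b =>
      Cfsg.Agent.Helper70.OH5992.o_sub (Cfsg.quadFormOdd d F) hQ h2 K hK e hev he0 heK b) hteven
  intro hcn
  obtain ⟨g, hg, hgr, hgfix⟩ := Cfsg.Agent.Helper88.OH5992.o_bad p h2 d r hr2 hrp i c hi hc hcn
  refine ⟨Matrix.toLin'
    (g : Matrix (Unit ⊕ (Fin d ⊕ Fin d)) (Unit ⊕ (Fin d ⊕ Fin d)) F), ?_, ?_, hgfix, hL g hg hgr⟩
  · intro v
    rw [Matrix.toLin'_apply]
    exact hg v v
  · rw [← Matrix.toLin'_pow]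
    have h1 : g ^ r = 1 := by
      rw [← hgr]
      exact pow_orderOf_eq_one g
    have h3 : (g : Matrix (Unit ⊕ (Fin d ⊕ Fin d)) (Unit ⊕ (Fin d ⊕ Fin d)) F) ^ r = 1 := by
      rw [← Units.val_pow_eq_pow_val, h1]
      rfl
    rw [h3, Matrix.toLin'_one]
    rfl

end Cfsg.Agent.Helper31.OH5992
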